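import Cfsg.Agent.H49.Lin34
import Mathlib.LinearAlgebra.Matrix.GeneralLinearGroup.Card

/-! An element of order 3 with two-dimensional commutator space on a module over `F₃`, normalising
a four-group. -/

set_option autoImplicit false
set_option linter.unusedSectionVars false

namespace Cfsg.Agent.H20

open Cfsg Subgroup Module
open scoped Cfsg.Agent.H49 commutatorElement

variable {G : Type*} [Group G] {b x y z c : G}

/-- `b` permutes the involutions `x, y, z` of a four-group cyclically -/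
structure Tri (b x y z : G) : Prop where
  ne : x ≠ 1
  sq : x * x = 1
  bx : b * x * b⁻¹ = y
  by' : b * y * b⁻¹ = z
  bz : b * z * b⁻¹ = x
  mul : x * y = z

namespace Tri

theorem rot (h : Tri b x y z) : Tri b y z x :=
  ⟨fun e => h.ne (by simpa [e] using h.bx), by rw [← h.bx, conj_mul, h.sq]; simp, h.by', h.bz, h.bx,
    by have := congrArg (fun t => b * t * b⁻¹) h.mul; rwa [← conj_mul, h.bx, h.by', h.bz] at this⟩

theorem mul' (h : Tri b x y z) : y * x = z := by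
  rw [← h.rot.mul, ← mul_assoc, h.rot.sq, one_mul]

theorem of_comm (b3 : b ^ 3 = 1) (xx : x * x = 1) (cm : x * (b * x * b⁻¹) = b * x * b⁻¹ * x)
    (hn : b * x * b⁻¹ ≠ x) : ∃ y z, Tri b (x * (b * x * b⁻¹)) y z := by
  obtain ⟨y, hy⟩ : ∃ y, y = b * x * b⁻¹ := ⟨_, rfl⟩
  obtain ⟨z, hz⟩ : ∃ z, z = b * y * b⁻¹ := ⟨_, rfl⟩
  have e : b * z * b⁻¹ = x := by
    calc _ = b ^ 3 * x * (b ^ 3)⁻¹ := by rw [hz, hy, pow_three']; group
      _ = x := by simp [b3]
  have yy : y * y = 1 := by rw [hy, conj_mul, xx]; simp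
  have c1 : y * z = z * y := by
    have := congrArg (fun t => b * t * b⁻¹) cm
    simpa only [← conj_mul, ← hy, ← hz] using this
  have c2 : z * x = x * z := by
    have := congrArg (fun t => b * t * b⁻¹) c1
    simpa only [← conj_mul, ← hz, e] using this
  rw [← hy] at cm hn ⊢
  refine ⟨y * z, z * x, fun h => hn ?_, ?_, by rw [← conj_mul, ← hy, ← hz], by rw [← conj_mul, ← hz, e],
    by rw [← conj_mul, e, ← hy], by rw [mul_assoc, ← mul_assoc y, yy, one_mul, c2]⟩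
  · rw [← one_mul y, ← xx, mul_assoc, h, mul_one]
  · rw [mul_assoc, ← mul_assoc y, ← cm, mul_assoc, yy, mul_one, xx]

end Tri

variable {E : Type*} [AddCommGroup E] [Module (ZMod 3) E] {ρ : G →* End (ZMod 3) E} {e f g v w : E}

theorem three (v : E) : v + v + v = 0 := by
  have : ((1 + 1 + 1 : ZMod 3)) • v = 0 := by rw [show (1 + 1 + 1 : ZMod 3) = 0 by decide, zero_smul]
  simpa only [add_smul, one_smul] using this

theorem rep_mul (ρ : G →* End (ZMod 3) E) (a c : G) (v : E) : ρ a (ρ c v) = ρ (a * c) v := by rw [map_mul]; rfl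

theorem rep_inj (h : ρ c v = 0) : v = 0 := by rw [← H49.rep_inv_apply ρ c v, h, map_zero]

/-- the `(+,-)` eigenspace of a four-group -/
def Ln (ρ : G →* End (ZMod 3) E) (x y : G) (v : E) : Prop := ρ x v = v ∧ ρ y v = -v

theorem Ln.third (l : Ln ρ x y v) (h : Tri b x y z) : ρ z v = -v := by
  rw [← h.mul, ← rep_mul, l.2, map_neg, l.1]

theorem Ln.map (l : Ln ρ x y v) (h : Tri b x y z) : Ln ρ y z (ρ b v) :=
  ⟨by rw [← h.bx, rep_mul, inv_mul_cancel_right, ← rep_mul, l.1],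
    by rw [← h.by', rep_mul, inv_mul_cancel_right, ← rep_mul, l.2, map_neg]⟩

theorem Tri.ln (h : Tri b x y z) (v : E) : Ln ρ x y (v + ρ x v - ρ y v - ρ z v) := by
  constructor <;> simp only [map_add, map_sub, rep_mul, h.sq, h.mul, h.rot.rot.mul', h.mul', h.rot.sq, h.rot.mul,
    map_one, End.one_apply] <;> abel

/-- a frame for the action of `⟨x, y, b⟩ ≅ A₄` -/
structure Fr (ρ : G →* End (ZMod 3) E) (b x y z : G) (e f g : E) : Prop where
  ne : e ≠ 0
  be : ρ b e = f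
  bf : ρ b f = g
  bg : ρ b g = e
  le : Ln ρ x y e
  lf : Ln ρ y z f
  lg : Ln ρ z x g
  se : ∀ v, Ln ρ x y v → ∃ s : ZMod 3, v = s • e
  sf : ∀ v, Ln ρ y z v → ∃ s : ZMod 3, v = s • f
  sg : ∀ v, Ln ρ z x v → ∃ s : ZMod 3, v = s • g
  fix : ∀ w, ρ x w = w → ρ y w = w → ρ b w = w

theorem Tri.frame [Finite E] (hρ : Function.Injective ρ) (b3 : b ^ 3 = 1) (h : Tri b x y z)
    (hD : finrank (ZMod 3) (LinearMap.range (ρ b - 1)) ≤ 2) : ∃ e f g, Fr ρ b x y z e f g := by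
  have bbb : ∀ v, ρ b (ρ b (ρ b v)) = v := fun v => by
    rw [rep_mul, rep_mul, ← pow_three', b3, map_one, End.one_apply]
  obtain ⟨e, ne, le⟩ : ∃ e, e ≠ 0 ∧ Ln ρ x y e := by
    by_contra! hn
    replace hn : ∀ e, Ln ρ x y e → e = 0 := fun e l => by_contra fun ne => hn e ne l
    refine h.ne (hρ ((map_one ρ).symm ▸ LinearMap.ext fun v => ?_))
    have h1 := rep_inj (rep_inj (hn _ (((h.rot.ln v).map h.rot).map h.rot.rot)))
    have h2 := rep_inj (hn _ ((h.rot.rot.ln v).map h.rot.rot))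
    rw [End.one_apply]
    linear_combination (norm := module) h1 + h2 - three v + three (ρ x v)
  obtain ⟨f, hf⟩ : ∃ f, ρ b e = f := ⟨_, rfl⟩
  obtain ⟨g, hg⟩ : ∃ g, ρ b f = g := ⟨_, rfl⟩
  have lf : Ln ρ y z f := hf ▸ le.map h
  have lg : Ln ρ z x g := hg ▸ lf.map h.rot
  have ze := le.third h
  have xf := lf.third h.rot
  have yg := lg.third h.rot.rot
  have li : LinearIndependent (ZMod 3) ![f - e, g - f] := LinearIndependent.pair_iff.2 fun s t hh => by
    have h1 := congrArg (ρ x) hh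
    have h2 := congrArg (ρ z) hh
    simp only [map_add, map_smul, map_sub, map_zero, le.1, xf, lg.2, ze, lf.2, lg.1] at h1 h2
    have h3 : s • e = 0 := by linear_combination (norm := module) hh + h1 + three (s • e)
    have h4 : t • g = 0 := by linear_combination (norm := module) -hh - h2 + three (t • g)
    exact ⟨(smul_eq_zero.1 h3).resolve_right ne, (smul_eq_zero.1 h4).resolve_right fun e0 =>
      ne (rep_inj (hf.symm ▸ rep_inj (hg.symm ▸ e0)))⟩
  have D : ∀ v, ∃ s t : ZMod 3, s • (f - e) + t • (g - f) = ρ b v - v := fun v => by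
    have h1 : Submodule.span (ZMod 3) (Set.range ![f - e, g - f]) = LinearMap.range (ρ b - 1) :=
      Submodule.eq_of_le_of_finrank_le (Submodule.span_le.2 (by
        rw [Matrix.range_cons, Matrix.range_cons, Matrix.range_empty]
        rintro _ (rfl | rfl | h)
        exacts [⟨e, by simp [hf]⟩, ⟨f, by simp [hg]⟩, h.elim])) (by rwa [finrank_span_eq_card li])
    have h2 : ρ b v - v ∈ Submodule.span (ZMod 3) (Set.range ![f - e, g - f]) := h1 ▸ ⟨v, rfl⟩
    rwa [Matrix.range_cons, Matrix.range_cons, Matrix.range_empty, Set.union_empty, Set.singleton_union,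
      Submodule.mem_span_pair] at h2
  have se : ∀ v, Ln ρ x y v → ∃ s : ZMod 3, v = s • e := fun v l => by
    obtain ⟨s, t, hh⟩ := D v
    have h1 := congrArg (ρ x) hh
    simp only [map_add, map_smul, map_sub, le.1, xf, lg.2, l.1, (l.map h).third h.rot] at h1
    exact ⟨s, by linear_combination (norm := module) -hh - h1 + three v - three (s • e)⟩
  refine ⟨e, f, g, ne, hf, hg, by rw [← hg, ← hf, bbb], le, lf, lg, se, fun v l => ?_, fun v l => ?_, fun w h1 h2 => ?_⟩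
  · obtain ⟨s, hs⟩ := se _ ((l.map h.rot).map h.rot.rot)
    exact ⟨s, by rw [← bbb v, hs, map_smul, hf]⟩
  · obtain ⟨s, hs⟩ := se _ (l.map h.rot.rot)
    exact ⟨s, by rw [← bbb v, hs, map_smul, map_smul, hf, hg]⟩
  · obtain ⟨s, t, hh⟩ := D w
    have h3 : ρ z w = w := by rw [← h.mul, ← rep_mul, h2, h1]
    have k : ∀ {a a' : G}, b * a * b⁻¹ = a' → ρ a w = w → ρ a' (ρ b w) = ρ b w := fun e1 e2 => by
      rw [← e1, rep_mul, inv_mul_cancel_right, ← rep_mul, e2]
    have i1 := congrArg (ρ x) hh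
    have i2 := congrArg (ρ y) hh
    have i3 := congrArg (ρ z) hh
    simp only [map_add, map_smul, map_sub, le.1, xf, lg.2, ze, lf.2, lg.1, le.2, lf.1, yg, h1, h2, h3, k h.bx h1,
      k h.by' h2, k h.bz h3] at i1 i2 i3
    linear_combination (norm := module) -hh - i1 - i2 - i3 - three (ρ b w) + three w

/-- the four-group -/
def Tri.grp (h : Tri b x y z) : Subgroup G where
  carrier := {t | t = 1 ∨ t = x ∨ t = y ∨ t = z}
  one_mem' := .inl rfl
  mul_mem' := by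
    rintro _ _ (rfl | rfl | rfl | rfl) (rfl | rfl | rfl | rfl) <;>
      simp [h.sq, h.mul, h.mul', h.rot.sq, h.rot.mul, h.rot.mul', h.rot.rot.sq, h.rot.rot.mul, h.rot.rot.mul']
  inv_mem' := by
    rintro _ (rfl | rfl | rfl | rfl) <;> simp [inv_eq_of_mul_eq_one_right h.sq, inv_eq_of_mul_eq_one_right h.rot.sq,
      inv_eq_of_mul_eq_one_right h.rot.rot.sq]

theorem Tri.mem_grp (h : Tri b x y z) : c ∈ h.grp ↔ c = 1 ∨ c = x ∨ c = y ∨ c = z := Iff.rfl

theorem Tri.ne' (h : Tri b x y z) : x ≠ y := fun e => h.rot.rot.ne (by rw [← h.mul, ← e, h.sq])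

theorem Tri.card (h : Tri b x y z) : Nat.card h.grp = 4 := by
  have : (h.grp : Set G) = {1, x, y, z} := rfl
  rw [← SetLike.coe_sort_coe, this, Nat.card_coe_set_eq, Set.ncard_insert_of_notMem (by
    simp [h.ne.symm, h.rot.ne.symm, h.rot.rot.ne.symm]), Set.ncard_insert_of_notMem (by
    simp [h.ne', h.rot.rot.ne'.symm]), Set.ncard_pair h.rot.ne']

theorem Tri.grp_le (h : Tri b x y z) {K : Subgroup G} (hx : x ∈ K) (hy : y ∈ K) : h.grp ≤ K := by
  rintro _ (rfl | rfl | rfl | rfl)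
  exacts [one_mem _, hx, hy, h.mul ▸ mul_mem hx hy]

/-- the elements acting trivially on `E / Y` -/
def triv (ρ : G →* End (ZMod 3) E) (Y : Submodule (ZMod 3) E) : Subgroup G where
  carrier := {t | ∀ v, ρ t v - v ∈ Y}
  one_mem' v := by simp
  mul_mem' {a c} ha hc v := by
    rw [← rep_mul, ← sub_add_sub_cancel _ (ρ c v)]; exact add_mem (ha _) (hc _)
  inv_mem' {a} ha v := by simpa [H49.rep_apply_inv] using neg_mem (ha (ρ a⁻¹ v))

variable {Y : Submodule (ZMod 3) E} {R : Subgroup G}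

theorem conj_triv (h : c ∈ triv ρ Y) (t : G) : t * c * t⁻¹ ∈ triv ρ (Y.map (ρ t)) := fun v =>
  ⟨_, h (ρ t⁻¹ v), by rw [map_sub, H49.rep_apply_inv, rep_mul, rep_mul]⟩

theorem triv_mono {Y' : Submodule (ZMod 3) E} (h : Y ≤ Y') : triv ρ Y ≤ triv ρ Y' := fun _ hc v => h (hc v)

theorem le_triv [Finite G] (hY : ∀ r ∈ R, ∀ v ∈ Y, ρ r v ∈ Y) (hb : b ∈ triv ρ Y) : ⁅R, zpowers b⁆ ≤ triv ρ Y :=
  commutator_le.2 fun r hr _ hc => mul_mem (triv_mono (Submodule.map_le_iff_le_comap.2 (hY r hr))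
    (conj_triv (zpowers_le_of_mem hb hc) r)) (inv_mem (zpowers_le_of_mem hb hc))

namespace Fr

theorem rot (F : Fr ρ b x y z e f g) (h : Tri b x y z) : Fr ρ b y z x f g e :=
  ⟨fun e0 => F.ne (rep_inj (F.be.symm ▸ e0)), F.bf, F.bg, F.be, F.lf, F.lg, F.le, F.sf, F.sg, F.se,
    fun w h1 h2 => F.fix w (by rw [← h.rot.mul, ← rep_mul, h2, h1]) h1⟩

theorem dec (F : Fr ρ b x y z e f g) (h : Tri b x y z) (v : E) : ∃ (w : E) (s t u : ZMod 3),
    v = w + s • e + t • f + u • g ∧ ρ x w = w ∧ ρ y w = w ∧ v + ρ x v - ρ y v - ρ z v = s • e ∧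
      v + ρ y v - ρ z v - ρ x v = t • f ∧ v + ρ z v - ρ x v - ρ y v = u • g := by
  obtain ⟨s, hs⟩ := F.se _ (h.ln v)
  obtain ⟨t, ht⟩ := F.sf _ (h.rot.ln v)
  obtain ⟨u, hu⟩ := F.sg _ (h.rot.rot.ln v)
  refine ⟨v + ρ x v + ρ y v + ρ z v, s, t, u, by linear_combination (norm := module) hs + ht + hu - three v, ?_, ?_,
    hs, ht, hu⟩ <;> simp only [map_add, rep_mul, h.sq, h.mul, h.rot.rot.mul', h.mul', h.rot.sq, h.rot.mul,
    map_one, End.one_apply] <;> abel

theorem mem_triv (F : Fr ρ b x y z e f g) (h : Tri b x y z) (he : e ∈ Y) (hf : f ∈ Y) (hg : g ∈ Y) :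
    b ∈ triv ρ Y ∧ h.grp ≤ triv ρ Y := by
  have k : ∀ c, (∀ w, ρ x w = w → ρ y w = w → ρ c w = w) → ρ c e ∈ Y → ρ c f ∈ Y → ρ c g ∈ Y → c ∈ triv ρ Y :=
    fun c h0 h1 h2 h3 v => by
      obtain ⟨w, s, t, u, rfl, w1, w2, -⟩ := F.dec h v
      convert add_mem (add_mem (Y.smul_mem s (sub_mem h1 he)) (Y.smul_mem t (sub_mem h2 hf)))
        (Y.smul_mem u (sub_mem h3 hg)) using 1
      simp only [map_add, map_smul, h0 w w1 w2]; module
  exact ⟨k b F.fix (F.be ▸ hf) (F.bf ▸ hg) (F.bg ▸ he), h.grp_le (k x (fun _ h _ => h) (F.le.1.symm ▸ he)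
    ((F.lf.third h.rot).symm ▸ neg_mem hf) (F.lg.2.symm ▸ neg_mem hg)) (k y (fun _ _ h => h)
    (F.le.2.symm ▸ neg_mem he) (F.lf.1.symm ▸ hf) ((F.lg.third h.rot.rot).symm ▸ neg_mem hg))⟩

theorem ext' (F : Fr ρ b x y z e f g) (h : Tri b x y z) (hρ : Function.Injective ρ) {d : G}
    (h0 : ∀ w, ρ x w = w → ρ y w = w → ρ c w = ρ d w) (h1 : ρ c e = ρ d e) (h2 : ρ c f = ρ d f)
    (h3 : ρ c g = ρ d g) : c = d := hρ (LinearMap.ext fun v => by
  obtain ⟨w, s, t, u, rfl, w1, w2, -⟩ := F.dec h v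
  simp only [map_add, map_smul, h0 w w1 w2, h1, h2, h3])

theorem sign (F : Fr ρ b x y z e f g) (c1 : x * c = c * x) (c2 : y * c = c * y) : ρ c e = e ∨ ρ c e = -e := by
  obtain ⟨s, hs⟩ := F.se (ρ c e) ⟨by rw [rep_mul, c1, ← rep_mul, F.le.1], by rw [rep_mul, c2, ← rep_mul, F.le.2, map_neg]⟩
  rcases (by decide : ∀ s : ZMod 3, s = 0 ∨ s = 1 ∨ s = -1) s with rfl | rfl | rfl
  · exact absurd (rep_inj (hs.trans (zero_smul _ _))) F.ne
  · exact .inl (by simpa using hs)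
  · exact .inr (by simpa using hs)

theorem comm_mem (F : Fr ρ b x y z e f g) (h : Tri b x y z) (hρ : Function.Injective ρ) (hc : c ∈ 𝒞(h.grp)) :
    ⁅c, b⁆ ∈ h.grp := by
  have c1 := hc x (.inr (.inl rfl))
  have c2 := hc y (.inr (.inr (.inl rfl)))
  have c3 := hc z (.inr (.inr (.inr rfl)))
  have k : ∀ v, ρ ⁅c, b⁆ (ρ b (ρ c v)) = ρ c (ρ b v) := fun v => by
    simp only [rep_mul, commutatorElement_def]; congr 2; group
  have h0 : ∀ w, ρ x w = w → ρ y w = w → ρ ⁅c, b⁆ w = w := fun w w1 w2 => by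
    have i : ∀ {a}, a * c = c * a → ρ a w = w → ρ a (ρ c⁻¹ w) = ρ c⁻¹ w := fun {a} e1 e2 => by
      rw [rep_mul, (show Commute a c from e1).inv_right.eq, ← rep_mul, e2]
    have := k (ρ c⁻¹ w)
    rwa [F.fix _ (i c1 w1) (i c2 w2), H49.rep_apply_inv, F.fix w w1 w2] at this
  have k1 := k g
  have k2 := k e
  have k3 := k f
  have hz : ∀ w, ρ x w = w → ρ y w = w → ρ z w = w := fun w w1 w2 => by rw [← h.mul, ← rep_mul, w2, w1]
  have m1 := fun i j l => F.ext' h hρ (c := ⁅c, b⁆) (d := 1) (fun w w1 w2 => by simp [h0 w w1 w2]) i j l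
  have m2 := fun i j l => F.ext' h hρ (c := ⁅c, b⁆) (d := x) (fun w w1 w2 => by rw [h0 w w1 w2, w1]) i j l
  have m3 := fun i j l => F.ext' h hρ (c := ⁅c, b⁆) (d := y) (fun w w1 w2 => by rw [h0 w w1 w2, w2]) i j l
  have m4 := fun i j l => F.ext' h hρ (c := ⁅c, b⁆) (d := z) (fun w w1 w2 => by rw [h0 w w1 w2, hz w w1 w2]) i j l
  simp only [map_one, End.one_apply, F.le.1, F.le.2, F.lf.1, F.lf.2, F.lg.1, F.lg.2, F.le.third h, F.lf.third h.rot,
    F.lg.third h.rot.rot] at m1 m2 m3 m4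
  rcases F.sign c1 c2 with s1 | s1 <;> rcases (F.rot h).sign c2 c3 with s2 | s2 <;>
    rcases ((F.rot h).rot h.rot).sign c3 c1 with s3 | s3 <;>
    simp only [s1, s2, s3, F.be, F.bf, F.bg, map_neg, neg_eq_iff_eq_neg, neg_neg] at k1 k2 k3 <;>
    first | exact .inl (m1 k1 k2 k3) | exact .inr (.inl (m2 k1 k2 k3)) | exact .inr (.inr (.inl (m3 k1 k2 k3))) |
      exact .inr (.inr (.inr (m4 k1 k2 k3)))

theorem eq_one [Finite G] (F : Fr ρ b x y z e f g) (h : Tri b x y z) (hρ : Function.Injective ρ)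
    (hR : R ≤ ⁅R, zpowers b⁆) (c1 : c ∈ R) (c2 : c ∈ 𝒞(R)) (c3 : b * c = c * b) (cc : c * c = 1) (he : ρ c e = e) :
    c = 1 := by
  have k : ∀ {a : G} {v : E}, a * c = c * a → v ∈ LinearMap.ker (ρ c - 1) → ρ a v ∈ LinearMap.ker (ρ c - 1) :=
    fun {a v} e1 e2 => by
      rw [LinearMap.mem_ker, LinearMap.sub_apply, End.one_apply, sub_eq_zero] at e2 ⊢
      rw [rep_mul, ← e1, ← rep_mul, e2]
  have m1 : e ∈ LinearMap.ker (ρ c - 1) := by simp [he]
  have m2 := F.be ▸ k c3 m1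
  have := hR.trans (le_triv (fun r hr v => k (c2 r hr)) (F.mem_triv h m1 m2 (F.bf ▸ k c3 m2)).1) c1
  refine hρ (LinearMap.ext fun v => ?_)
  have h1 := this v
  simp only [LinearMap.mem_ker, LinearMap.sub_apply, End.one_apply, map_sub, rep_mul, cc, map_one] at h1 ⊢
  linear_combination (norm := module) h1 - three v + three (ρ c v)

end Fr

theorem card_dvd_GL [Finite G] [Finite E] (hρ : Function.Injective ρ) (hR : R ≤ triv ρ Y) (h3 : (Nat.card R).Coprime 3)
    {n : ℕ} (hn : finrank (ZMod 3) Y = n) : Nat.card R ∣ ∏ i : Fin n, (3 ^ n - 3 ^ (i : ℕ)) := by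
  have := Fact.mk Nat.prime_three
  let σ := Representation.subrepresentation (ρ.comp R.subtype) Y fun r v hv => by
    simpa using add_mem (hR r.2 v) hv
  let φ : R →* Matrix (Fin n) (Fin n) (ZMod 3) :=
    (LinearMap.toMatrixAlgEquiv (finBasisOfFinrankEq (ZMod 3) Y hn)).toMonoidHom.comp σ
  have := card_dvd_of_injective φ.toHomUnits ((injective_iff_map_eq_one _).2 fun r hr => ?_)
  · rwa [Matrix.card_GL_field, ZMod.card] at this
  have h1 : σ r = 1 := (map_eq_one_iff _ (LinearMap.toMatrixAlgEquiv _).injective).1 (congrArg Units.val hr)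
  have h2 : ∀ v, ρ r (ρ r v - v) = ρ r v - v := fun v => congrArg Subtype.val (LinearMap.congr_fun h1 ⟨_, hR r.2 v⟩)
  have h4 : r ^ 3 = 1 := Subtype.ext (hρ (LinearMap.ext fun v => by
    have h5 := h2 v
    have h6 := h2 (ρ r v)
    rw [map_sub] at h5 h6
    rw [coe_pow, pow_three', ← rep_mul, ← rep_mul, coe_one, map_one, End.one_apply]
    linear_combination (norm := module) h6 + h5 + h5 + three (ρ r v) - three v))
  exact orderOf_eq_one_iff.1 (Nat.eq_one_of_dvd_coprimes h3 (orderOf_dvd_natCard r) (orderOf_dvd_of_pow_eq_one h4))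

end Cfsg.Agent.H20
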