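import Cfsg.Agent.H20.Exs2

/-!
Extraspecial Sylow subgroups of order `p³` and exponent `p`: the bound on `p`.
-/

set_option autoImplicit false
set_option linter.unusedSectionVars false

namespace Cfsg.Agent.H20

open Subgroup Cfsg.Agent.H49 Multiplicative Matrix.ProjGenLinGroup
open Matrix hiding zpow_mul zpow_add one_zpow

variable {G : Type*} [Group G] [Finite G] {p : ℕ} [hp : Fact p.Prime]

theorem conj_two {z a g : G} (hc : Commute z a) {i₁ j₁ i₂ j₂ : ℤ}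
    (h1 : g * z * g⁻¹ = z ^ i₁ * a ^ j₁) (h2 : g * a * g⁻¹ = z ^ i₂ * a ^ j₂) (i j : ℤ) :
    g * (z ^ i * a ^ j) * g⁻¹ = z ^ (i₁ * i + i₂ * j) * a ^ (j₁ * i + j₂ * j) := by
  rw [← conj_mul, ← conj_zpow, ← conj_zpow, h1, h2, (hc.zpow_zpow _ _).mul_zpow,
    (hc.zpow_zpow _ _).mul_zpow, ← zpow_mul, ← zpow_mul, ← zpow_mul, ← zpow_mul,
    (hc.zpow_zpow _ _).symm.mul_mul_mul_comm, ← zpow_add, ← zpow_add]

variable {P : Subgroup G} {z : G} {κ : P →* Multiplicative (Fin 2 → ZMod p)}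

/-- Some element fixes `a` and moves `z` by a power of `a`. -/
def Low (z a : G) : Prop := ∃ g, ∃ b ∈ zpowers a, b ≠ 1 ∧ g * a * g⁻¹ = a ∧ g * z * g⁻¹ = z * b

namespace Exs

theorem frattini (h : Exs P z κ) (hS : ¬ p ∣ P.index) {A : Subgroup G} (hA : A ≤ P) {g : G}
    (h1 : g ∈ 𝒩(A)) (h2 : g ∈ 𝒩(zpowers z)) : ∃ m, m * g ∈ 𝒩(P) ∧
      (∀ u ∈ A, m * u * m⁻¹ * u⁻¹ ∈ zpowers z) ∧ ∀ w ∈ zpowers z, m * w * m⁻¹ = w := by
  let M : Subgroup G :=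
    { carrier := {x | (∀ u ∈ A, x * u * x⁻¹ * u⁻¹ ∈ zpowers z) ∧ ∀ w ∈ zpowers z, x * w * x⁻¹ = w}
      one_mem' := ⟨by simp, by simp⟩
      mul_mem' := fun {x y} hx hy => ⟨fun u hu => by
        have := mul_mem (hy.1 u hu) (hx.1 u hu)
        rw [← hx.2 _ (hy.1 u hu)] at this
        convert this using 1; group, fun w hw => by
        calc x * y * w * (x * y)⁻¹ = x * (y * w * y⁻¹) * x⁻¹ := by group
          _ = w := by rw [hy.2 w hw, hx.2 w hw]⟩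
      inv_mem' := fun {x} hx => by
        have k : ∀ w ∈ zpowers z, x⁻¹ * w * x⁻¹⁻¹ = w := fun w hw => by
          conv_lhs => rw [← hx.2 w hw]
          group
        refine ⟨fun u hu => ?_, k⟩
        have := inv_mem (hx.1 u hu)
        rw [← k _ this] at this
        convert this using 1; group }
  have hP : P ≤ M := fun x hx => ⟨fun u hu => h.comm x hx u (hA hu), fun w hw => by
    rw [h.cen' hw hx, mul_inv_cancel_right]⟩
  have pP : IsPGroup p P := fun x => ⟨1, Subtype.ext (by simpa using h.pw x x.2)⟩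
  obtain ⟨m, hm, e⟩ := sylowOf_subJ (P := P) (M := M) (X := cj g P)
    ((sylowOf_iff hp.out).2 ⟨hP, pP, fun hd => hS (hd.trans (relIndex_dvd_index_of_le hP))⟩)
    (fun x hx => by
      obtain ⟨y, hy, rfl⟩ := mem_cj'.1 hx
      refine ⟨fun u hu => ?_, fun w hw => ?_⟩
      · have := conj_mem_of_norm le_rfl h2 ((hP hy).1 _ (conj_mem_of_norm' le_rfl h1 hu))
        convert this using 1; group
      · have := (hP hy).2 _ (conj_mem_of_norm' le_rfl h2 hw)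
        calc g * y * g⁻¹ * w * (g * y * g⁻¹)⁻¹ = g * (y * (g⁻¹ * w * g) * y⁻¹) * g⁻¹ := by group
          _ = w := by rw [this]; group)
    (isPi_of_isPGroup hp.out (isPGroup_cj.2 pP))
  exact ⟨m, mem_norm_of_cj_le (by rwa [cj_mul]), hm⟩

theorem exists_torus (h : Exs P z κ) (hS : ¬ p ∣ P.index) {a : G} (ha : a ∈ P)
    (haz : a ∉ zpowers z) (hl : Low z a) {l l' : ℕ} (hll : (l : ZMod p) * l' = 1) :
    ∃ n ∈ 𝒩(P), n * z * n⁻¹ = z ^ l ∧ ∃ w ∈ zpowers z, n * a * n⁻¹ = a ^ l' * w := by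
  have hc : Commute z a := (h.cen' (mem_zpowers z) ha).symm
  have L : ∀ t : ℤ, ∃ g, g * z * g⁻¹ = z ^ (1 : ℤ) * a ^ t ∧
      g * a * g⁻¹ = z ^ (0 : ℤ) * a ^ (1 : ℤ) := fun t => by
    obtain ⟨g, b, hb, b1, e1, e2⟩ := hl
    have c : Commute g a := mul_inv_eq_iff_eq_mul.1 e1
    obtain ⟨j, hj⟩ := exists_trans (h.pw a ha) hb b1 (by
      obtain ⟨k, rfl⟩ := hb
      exact mul_inv_eq_iff_eq_mul.2 (c.zpow_right k)) e2 t
    exact ⟨g ^ j, by simpa using hj, by simpa [mul_inv_eq_iff_eq_mul] using (c.pow_left j).eq⟩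
  obtain ⟨g₁, a1, a2⟩ := L 1
  obtain ⟨g₃, c1, c2⟩ := L (-l')
  obtain ⟨g₂, hg₂, b2⟩ := h.exists_u ha haz (l - 1)
  have b1 : g₂ * z * g₂⁻¹ = z ^ (1 : ℤ) * a ^ (0 : ℤ) := by
    simp [h.cen' (mem_zpowers z) hg₂]
  replace b2 : g₂ * a * g₂⁻¹ = z ^ (l - 1 : ℤ) * a ^ (1 : ℤ) := by
    rw [b2, zpow_one, (hc.zpow_left _).eq]
  obtain ⟨k, hk⟩ : (p : ℤ) ∣ 1 - l * l' :=
    (ZMod.intCast_zmod_eq_zero_iff_dvd _ p).1 (by push_cast; rw [hll, sub_self])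
  have ap : a ^ (1 - l * l' : ℤ) = 1 := by rw [hk, zpow_mul, zpow_natCast, h.pw a ha, one_zpow]
  have e0 : ∀ x, g₃ * g₂ * g₁ * x * (g₃ * g₂ * g₁)⁻¹ = g₃ * (g₂ * (g₁ * x * g₁⁻¹) * g₂⁻¹) * g₃⁻¹ :=
    fun x => by group
  have e1 : g₃ * g₂ * g₁ * z * (g₃ * g₂ * g₁)⁻¹ = z ^ l := by
    rw [e0, a1, conj_two hc b1 b2, conj_two hc c1 c2, ← mul_one (z ^ l), ← ap, ← zpow_natCast]
    congr 2 <;> ring
  have e2 : g₃ * g₂ * g₁ * a * (g₃ * g₂ * g₁)⁻¹ = a ^ l' * z ^ (l - 1 : ℤ) := by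
    rw [e0, a2, conj_two hc b1 b2, conj_two hc c1 c2, (hc.zpow_zpow _ _).eq, ← mul_one (a ^ l'),
      ← ap, ← zpow_natCast, ← zpow_add]
    congr 2 <;> ring
  generalize g₃ * g₂ * g₁ = g at e1 e2
  have n2 : g ∈ 𝒩(zpowers z) := mem_norm_of_cj_le (by
    rw [cj_zpowers, e1, zpowers_le]; exact pow_mem (mem_zpowers z) l)
  have m1 : a ^ l' ∈ zpowers a ⊔ zpowers z := mem_sup_left (pow_mem (mem_zpowers a) l')
  have n1 : g ∈ 𝒩(zpowers a ⊔ zpowers z) := mem_norm_of_cj_le (by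
    rw [cj_sup, cj_eq_of_mem_norm n2, cj_zpowers, e2]
    exact sup_le (zpowers_le.2 (mul_mem m1 (mem_sup_right (zpow_mem_zpowers z _)))) le_sup_right)
  obtain ⟨m, hm, m2, m3⟩ := h.frattini hS (sup_le (zpowers_le.2 ha) h.zp_le) n1 n2
  have e3 : ∀ x, m * g * x * (m * g)⁻¹ = m * (g * x * g⁻¹) * m⁻¹ := fun x => by group
  refine ⟨_, hm, by rw [e3, e1, m3 _ (pow_mem (mem_zpowers z) l)], _,
    mul_mem (m2 _ m1) (zpow_mem_zpowers z (l - 1)), ?_⟩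
  rw [e3, e2, ← conj_mul, m3 _ (zpow_mem_zpowers z _), ← mul_assoc,
    h.cen' (m2 _ m1) (pow_mem ha l')]
  group

theorem bound (h : Exs P z κ) (hS : ¬ p ∣ P.index) {ι : Type*} [Fintype ι] (a : ι → P)
    (haz : ∀ i, (a i).1 ∉ zpowers z) (hl : ∀ i, Low z (a i))
    (hne : ∀ i j, (∃ k : ℕ, κ (a j) = κ (a i) ^ k) → i = j) (h3 : 3 ≤ Fintype.card ι) :
    p ≤ 7 ∨ (p = 13 ∧ Fintype.card ι ≤ 12) := by
  obtain ⟨σ, hσ⟩ := h.exists_rep
  have pw : ∀ (x : P) (k : ℕ), toAdd (κ x ^ k) = (k : ZMod p) • toAdd (κ x) := fun x k => by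
    rw [toAdd_pow, Nat.cast_smul_eq_nsmul]
  have ne : ∀ i, toAdd (κ (a i)) ≠ 0 := fun i e => haz i ((h.ker _).1 e)
  choose y c hc e using fun i => exists_vec (ne i)
  obtain ⟨u, hu⟩ := IsCyclic.exists_generator (α := (ZMod p)ˣ)
  have ou : orderOf u = p - 1 := by
    rw [orderOf_eq_card_of_forall_mem_zpowers hu, Nat.card_eq_fintype_card, ZMod.card_units]
  refine pgl_cases (ProjGenLinGroup.mk.comp σ).range (fun hd => hS ?_) y (fun i j e' => hne i j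
    ⟨(c j / c i).val, toAdd.injective ?_⟩) h3 fun i => ?_
  · rw [← index_ker] at hd
    refine (hd.trans (index_dvd_of_le (H := P.subgroupOf 𝒩(P)) fun n hn => ?_)).trans
      (relIndex_dvd_index_of_le le_normalizer)
    have : σ n = 1 := Units.ext (Matrix.mulVec_injective (funext fun v => by
      obtain ⟨x, hx⟩ := h.surj (ofAdd v)
      have := hσ n x
      rw [show (⟨n * x * (n : G)⁻¹, conj_mem_of_norm le_rfl n.2 x.2⟩ : P) =
        ⟨n, mem_subgroupOf.1 hn⟩ * x * ⟨n, mem_subgroupOf.1 hn⟩⁻¹ from rfl, κ.map_mul, κ.map_mul,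
        κ.map_inv, mul_inv_cancel_comm, hx] at this
      simpa using this))
    simp [this]
  · rw [pw, e, e, e', ZMod.natCast_zmod_val, smul_smul, div_mul_cancel₀ _ (hc i)]
  obtain ⟨n, hn, e1, w, hw, e2⟩ := h.exists_torus hS (a i).2 (haz i) (hl i) (l := u.1.val)
    (l' := u⁻¹.1.val) (by rw [ZMod.natCast_zmod_val, ZMod.natCast_zmod_val, Units.mul_inv])
  have e3 : (σ ⟨n, hn⟩ : Matrix (Fin 2) (Fin 2) (ZMod p)) *ᵥ toAdd (κ (a i)) = u⁻¹.1 • toAdd (κ (a i)) := by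
    rw [hσ, show (⟨n * a i * n⁻¹, conj_mem_of_norm le_rfl hn (a i).2⟩ : P) =
      a i ^ u⁻¹.1.val * ⟨w, h.zp_le hw⟩ from Subtype.ext e2, map_mul, (h.ker ⟨w, _⟩).2 hw, mul_one,
      map_pow, pw, ZMod.natCast_zmod_val]
  refine ⟨_, ⟨⟨n, hn⟩, rfl⟩, smul_eq_of_vec (c := u⁻¹.1) ?_, fun j hj => ?_⟩
  · rw [e, mulVec_smul, smul_comm] at e3
    exact smul_right_injective _ (hc i) e3
  rw [← map_pow, MonoidHom.comp_apply, ProjGenLinGroup.mk_eq_one,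
    GeneralLinearGroup.mem_center_iff_val_mem_range_scalar] at hj
  obtain ⟨μ, hμ⟩ := hj
  have s1 : ∀ v : Fin 2 → ZMod p, (σ (⟨n, hn⟩ ^ j) : Matrix (Fin 2) (Fin 2) (ZMod p)) *ᵥ v = μ • v := fun v => by
    rw [← hμ]; ext k; simp [mulVec_diagonal]
  have s2 : ∀ k : ℕ, (σ (⟨n, hn⟩ ^ k) : Matrix (Fin 2) (Fin 2) (ZMod p)) *ᵥ toAdd (κ (a i)) =
      (u⁻¹ ^ k).1 • toAdd (κ (a i)) := fun k => by
    induction k with
    | zero => simp
    | succ k ih => rw [pow_succ, map_mul, Units.val_mul, ← mulVec_mulVec, e3, mulVec_smul, ih,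
        smul_smul, pow_succ', Units.val_mul]
  have s3 : μ = (u⁻¹ ^ j).1 := smul_left_injective _ (ne i) ((s1 _).symm.trans (s2 j))
  have s4 := h.scalar (m := n ^ j) μ.val fun x hx => by
    have := hσ (⟨n, hn⟩ ^ j) ⟨x, hx⟩
    rw [s1, ← ZMod.natCast_zmod_val μ, ← pw, toAdd.injective.eq_iff, ← inv_mul_eq_one, ← map_pow,
      ← map_inv, ← map_mul, h.ker] at this
    exact ⟨_, this, by simp⟩
  have s5 : ∀ k : ℕ, n ^ k * z * (n ^ k)⁻¹ = z ^ (u.1.val ^ k) := fun k => by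
    induction k with
    | zero => simp
    | succ k ih =>
      rw [pow_succ', pow_succ', pow_mul, ← e1, conj_pow, ← ih]; group
  rw [s5, pow_eq_pow_iff_modEq, orderOf_eq_prime (h.pw z h.mem) h.ne,
    ← ZMod.natCast_eq_natCast_iff] at s4
  push_cast at s4
  simp only [ZMod.natCast_zmod_val, s3] at s4
  rw [← ou]
  refine orderOf_dvd_of_pow_eq_one ?_
  have : u ^ j = u⁻¹ ^ j * u⁻¹ ^ j := Units.ext (by simpa using s4)
  calc u ^ (3 * j) = u ^ j * (u ^ j * u ^ j) := by group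
    _ = 1 := by nth_rewrite 1 [this]; group

end Exs

end Cfsg.Agent.H20
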