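/-
Bridge between the ambient notion `IsFrob K E M` and the Prelude's `IsFrobeniusComplement`.
-/
import Cfsg.Agent.H49.Prod
import Cfsg.Agent.H1.FrobCount
import Cfsg.Agent.S0039

set_option autoImplicit false

namespace Cfsg.Agent.H20

open Subgroup Cfsg Cfsg.Agent.H49

variable {G : Type*} [Group G] [Finite G] {K E M : Subgroup G}

theorem isFrobeniusComplement_of_isFrob (h : IsFrob K E M) :
    IsFrobeniusComplement (E.subgroupOf M) := by
  obtain ⟨hs, hK, hE, hr⟩ := h
  haveI := normal_subgroupOf hs.norm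
  have hne : ∀ X : Subgroup G, X ≤ M → X ≠ ⊥ → X.subgroupOf M ≠ ⊥ := fun X hX h1 h => by
    rw [subgroupOf_eq_bot, disjoint_iff, inf_eq_left.2 hX] at h
    exact h1 h
  refine (S0039.result (K.subgroupOf M) (E.subgroupOf M)
    ((isComplIn_iff_isComplement' hs.left_le hs.right_le).1 hs.isComplIn)
    (hne _ hs.left_le hK) (hne _ hs.right_le hE)).2 ?_
  intro e he h1
  rw [eq_bot_iff]
  rintro k ⟨hk, hc⟩
  have : (k : G) ∈ K ⊓ 𝒞[(e : G)] :=
    ⟨hk, mem_cent1.2 (congrArg Subtype.val (mem_cent1.1 hc))⟩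
  rw [hr e he (fun h => h1 (Subtype.ext h))] at this
  exact Subtype.ext this

theorem frobeniusKernel_of_isFrob (h : IsFrob K E M) :
    frobeniusKernel (E.subgroupOf M) = ((K.subgroupOf M : Subgroup M) : Set M) := by
  have hF := isFrobeniusComplement_of_isFrob h
  obtain ⟨hs, -, -, -⟩ := h
  symm
  apply Set.eq_of_subset_of_ncard_le _ _ (Set.toFinite _)
  · intro k hk
    rw [H1.mem_frobeniusKernel]
    by_cases h1 : k = 1
    · exact Or.inl h1
    refine Or.inr fun g hg => h1 ?_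
    have : ((g⁻¹ * k * g : M) : G) ∈ K ⊓ E := ⟨conj_mem_of_norm' hs.norm g.2 hk, hg⟩
    rw [hs.2.1, mem_bot, OneMemClass.coe_eq_one] at this
    have e : k = g * (g⁻¹ * k * g) * g⁻¹ := by group
    rw [e, this]; group
  · rw [← Nat.card_coe_set_eq, ← Nat.card_coe_set_eq, H1.card_frobeniusKernel hF]
    change E.relIndex M ≤ Nat.card (K.subgroupOf M)
    rw [hs.relIndex_right, card_subgroupOf_of_le hs.left_le]

end Cfsg.Agent.H20
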