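import Cfsg.Agent.H20.Hom1
import Cfsg.Agent.H42.Index2

/-! Homogeneous finite groups: functionals, the rank lemma, central involutions. -/

set_option autoImplicit false

namespace Cfsg.Agent.H20.Hm

open Subgroup Cfsg.Agent.H49

variable {G : Type*} [Group G] [Finite G]

omit [Finite G] in
open Classical in
theorem ad_of_relIndex {U P : Subgroup G} (h : U.relIndex P = 2) :
    Ad P fun x => if x ∈ U then 0 else 1 := fun x hx y hy => by
  simp only [H42.mul_mem_iff_of_relIndex_two h hx hy]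
  by_cases h1 : x ∈ U <;> by_cases h2 : y ∈ U <;> simp [h1, h2]
  rfl

theorem pi_iff {P : Subgroup G} : IsPi {2} P ↔ IsPGroup 2 P := isPi_singleton_iff Nat.prime_two

/-- An invariant functional. -/
theorem exists_ad_inv {S N M : Subgroup G} (hS : IsPi {2} S) (hNM : N < M) (hM : M ≤ S)
    (hN : S ≤ 𝒩(N)) (hMn : S ≤ 𝒩(M)) : ∃ l, Ad M l ∧ (∀ x ∈ N, l x = 0) ∧ (∃ x ∈ M, l x = 1) ∧
      ∀ s ∈ S, ∀ x ∈ M, l (s * x * s⁻¹) = l x := by
  classical
  have : Fact (Nat.Prime 2) := ⟨Nat.prime_two⟩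
  obtain ⟨U, ⟨h1, h2, h3⟩, hmax⟩ := (wellFounded_gt (α := Subgroup G)).has_min
    {U | N ≤ U ∧ U < M ∧ S ≤ 𝒩(U)} ⟨N, le_rfl, hNM, hN⟩
  have := normal_subgroupOf h3
  have := normal_subgroupOf hMn
  obtain ⟨K, hK, hUK, hKM, hc, -⟩ := H3.exists_normal_card_eq_mul (pi_iff.1 hS) (U.subgroupOf S)
    (M.subgroupOf S) (lt_of_le_of_ne (comap_mono h2.le) fun e => h2.ne (by
      have := congrArg (Subgroup.map S.subtype) e
      rwa [subgroupOf_map_subtype, subgroupOf_map_subtype, inf_eq_left.2 hM,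
        inf_eq_left.2 (h2.le.trans hM)] at this))
  rw [card_subgroupOf_of_le (h2.le.trans hM)] at hc
  have hc' : Nat.card (K.map S.subtype) = Nat.card U * 2 := by
    rw [card_map_of_injective (subtype_injective S), hc]
  have hUK' : U ≤ K.map S.subtype := fun x hx => ⟨⟨x, hM (h2.le hx)⟩, hUK hx, rfl⟩
  have hKM' : K.map S.subtype ≤ M := by rintro _ ⟨x, hx, rfl⟩; exact hKM hx
  have hlt : U < K.map S.subtype := lt_of_le_of_ne hUK' fun e => by
    rw [← e] at hc'; have := card_pos' U; omega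
  have e : K.map S.subtype = M := by
    by_contra hne
    exact hmax _ ⟨h1.trans hUK', lt_of_le_of_ne hKM' hne, norm_map_subtype K⟩ hlt
  rw [e, ← card_mul_relIndex h2.le] at hc'
  have hi : U.relIndex M = 2 := Nat.eq_of_mul_eq_mul_left (card_pos' U) hc'
  obtain ⟨x, hx, hxU⟩ := SetLike.exists_of_lt h2
  refine ⟨_, ad_of_relIndex hi, fun x hx => if_pos (h1 hx), ⟨x, hx, if_neg hxU⟩, fun s hs y _ => ?_⟩
  simp only [← mem_normalizer_iff.1 (h3 hs) y]

/-- A functional separating `x` from `N`, when `P/N` is elementary abelian. -/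
theorem exists_ad_sep {P N : Subgroup G} (hsq : ∀ y ∈ P, y * y ∈ N) {x : G} (hx : x ∈ P)
    (hxN : x ∉ N) : ∃ l, Ad P l ∧ (∀ y ∈ P, y ∈ N → l y = 0) ∧ l x = 1 := by
  classical
  have : Fact (Nat.Prime 2) := ⟨Nat.prime_two⟩
  obtain ⟨M, -, -, hi, hNM, hxM⟩ := H3.exists_isCoatom_of_elementary_quotient (p := 2)
    (G := P) (N := N.subgroupOf P) (x := ⟨x, hx⟩) (by
      rw [commutator_def, commutator_le]
      intro a _ b _
      rw [mem_subgroupOf, commutatorElement_def]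
      have : ((a * b * a⁻¹ * b⁻¹ : P) : G) = (a * b) * (a * b) * ((b⁻¹ * a⁻¹ * b) * (b⁻¹ * a⁻¹ * b))
          * (b⁻¹ * b⁻¹) := by simp only [coe_mul, coe_inv]; group
      rw [this]
      exact mul_mem (mul_mem (hsq _ (mul_mem a.2 b.2))
        (hsq _ (mul_mem (mul_mem (inv_mem b.2) (inv_mem a.2)) b.2))) (hsq _ (inv_mem b.2)))
    (fun y => by rw [mem_subgroupOf, pow_two]; exact hsq y y.2) hxN
  refine ⟨_, ad_of_relIndex (U := M.map P.subtype) (by rw [relIndex_map_subtype_self, hi]),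
    fun y hy hyN => if_pos ⟨⟨y, hy⟩, hNM hyN, rfl⟩, if_neg ?_⟩
  rintro ⟨y, hy, e⟩
  exact hxM (by rwa [show (⟨x, hx⟩ : P) = y from Subtype.ext e.symm])

omit [Finite G] in
theorem exists_dual {P : Subgroup G} {l m : G → ZMod 2} (hl : Ad P l) (hm : Ad P m)
    (h1 : ∃ x ∈ P, m x = 1) {c : G} (hc : c ∈ P) (e1 : l c = 1) (e2 : m c = 0) :
    ∃ d ∈ P, l d = 0 ∧ m d = 1 := by
  obtain ⟨d, hd, e⟩ := h1
  rcases z2 (l d) with h | h
  · exact ⟨d, hd, h, e⟩
  · exact ⟨d * c, mul_mem hd hc, by rw [hl d hd c hc, h, e1]; rfl, by rw [hm d hd c hc, e, e2]; rfl⟩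

omit [Finite G] in
theorem exists_dual2 {P : Subgroup G} {l m : G → ZMod 2} (hl : Ad P l) (hm : Ad P m)
    (h1 : ∃ x ∈ P, l x = 1) (h2 : ∃ x ∈ P, m x = 1) (h3 : ∃ x ∈ P, l x ≠ m x) :
    ∃ c ∈ P, ∃ d ∈ P, l c = 1 ∧ m c = 0 ∧ l d = 0 ∧ m d = 1 := by
  obtain ⟨x, hx, e⟩ := h3
  rcases z2 (l x) with h | h <;> rcases z2 (m x) with h' | h'
  · exact absurd (h.trans h'.symm) e
  · obtain ⟨d, hd, a, b⟩ := exists_dual hm hl h1 hx h' h
    exact ⟨d, hd, x, hx, b, a, h, h'⟩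
  · obtain ⟨d, hd, a, b⟩ := exists_dual hl hm h2 hx h h'
    exact ⟨x, hx, d, hd, h, h', a, b⟩
  · exact absurd (h.trans h'.symm) e

/-- `A = Ω₁(B) ≤ Z(B)`. -/
structure Om (B A : Subgroup G) : Prop where
  le : A ≤ B
  cen : ∀ a ∈ A, ∀ x ∈ B, x * a = a * x
  sq : ∀ a ∈ A, a * a = 1
  om : ∀ x ∈ B, x * x = 1 → x ∈ A

omit [Finite G] in
theorem Om.ca {B A : Subgroup G} (h : Om B A) {l : G → ZMod 2} (hl : Ad B l)
    (h0 : ∀ a ∈ A, l a = 0) {a : G} (ha : a ∈ A) : CA B l a :=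
  ⟨hl, h.le ha, h.cen a ha, h.sq a ha, h0 a ha⟩

omit [Finite G] in
theorem ind_self {B : Subgroup G} {l : G → ZMod 2} {a x : G} (hx : x ∈ B) (h : Ind B l a x)
    (ha : a ≠ 1) : l x = 0 := by
  have := h x hx
  rw [mul_inv_cancel_right, left_eq_mul] at this
  rcases r1_cases l a x with ⟨e, -⟩ | ⟨-, e⟩
  exacts [e, absurd (e.symm.trans this) ha]

omit [Finite G] in
theorem ind_cross {B A : Subgroup G} (h : Om B A) {l m : G → ZMod 2} {a b x y : G} (hx : x ∈ B)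
    (hy : y ∈ B) (ha : a ∈ A) (hb : b ∈ A) (h1 : Ind B l a x) (h2 : Ind B m b y) :
    r1 l a y = r1 m b x := by
  have e1 := h1 y hy
  have e2 := h2 x hx
  have c1 := h.cen _ (r1_mem (l := l) ha y)
  have s2 := h.sq _ (r1_mem (l := m) hb x)
  generalize r1 l a y = u at *
  generalize r1 m b x = v at *
  have e3 : x * y = y * x * u := by
    rw [mul_assoc, c1 x hx, ← mul_assoc, ← e1]; group
  have e4 : y * x = x * v * y := by rw [← e2]; group
  rw [e4, mul_assoc, c1 y hy, mul_assoc, mul_right_inj, ← mul_assoc, eq_comm, mul_eq_right] at e3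
  exact mul_left_cancel (e3.trans s2.symm)

theorem exists_ne_two {W : Subgroup G} (h : 4 ≤ Nat.card W) (b : G) :
    ∃ a ∈ W, a ≠ 1 ∧ a ≠ b := by
  by_contra hn
  push Not at hn
  have : (W : Set G) ⊆ {1, b} := fun a ha => by
    by_cases e : a = 1
    exacts [Or.inl e, Or.inr (hn a ha e)]
  have h2 := Set.ncard_le_ncard this
  have h3 := Set.ncard_insert_le (1 : G) {b}
  rw [Set.ncard_singleton] at h3
  have : Nat.card W = (W : Set G).ncard := rfl
  omega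

/-- The rank lemma. -/
theorem rank_lemma {B A W₁ W₂ : Subgroup G} (h : Om B A) {l m : G → ZMod 2} (hl : Ad B l)
    (hm : Ad B m) (l1 : ∃ x ∈ B, l x = 1) (m1 : ∃ x ∈ B, m x = 1) (lm : ∃ x ∈ B, l x ≠ m x)
    (h1 : W₁ ≤ A) (h2 : W₂ ≤ A) (i1 : ∀ a ∈ W₁, ∃ x ∈ B, Ind B l a x)
    (i2 : ∀ a ∈ W₂, ∃ x ∈ B, Ind B m a x) (h4 : 4 ≤ Nat.card W₁) :
    Nat.card W₁ * Nat.card W₂ ≤ Nat.card A := by
  by_cases hb : W₂ = ⊥
  · rw [hb, card_bot, mul_one]; exact card_le_of_le h1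
  obtain ⟨c, hc, d, hd, lc, mc, ld, md⟩ := exists_dual2 hl hm l1 m1 lm
  let E : Subgroup G :=
    { carrier := {x | x ∈ B ∧ l x = 0 ∧ m x = 0 ∧ (∀ b ∈ B, l b = 0 → m b = 0 → x * b = b * x) ∧
        ∀ b ∈ B, x * b * x⁻¹ * b⁻¹ ∈ A}
      one_mem' := ⟨one_mem _, hl.one, hm.one, fun b _ _ _ => by rw [one_mul, mul_one],
        fun b _ => by simp [one_mem]⟩
      mul_mem' := fun {x y} hx hy => ⟨mul_mem hx.1 hy.1,
        by rw [hl x hx.1 y hy.1, hx.2.1, hy.2.1, add_zero],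
        by rw [hm x hx.1 y hy.1, hx.2.2.1, hy.2.2.1, add_zero],
        fun b hb e1 e2 => by
          rw [mul_assoc, hy.2.2.2.1 b hb e1 e2, ← mul_assoc, hx.2.2.2.1 b hb e1 e2, mul_assoc],
        fun b hb => by
          have : x * y * b * (x * y)⁻¹ * b⁻¹ = x * (y * b * y⁻¹ * b⁻¹) * x⁻¹ *
            (x * b * x⁻¹ * b⁻¹) := by group
          rw [this, h.cen _ (hy.2.2.2.2 b hb) x hx.1, mul_inv_cancel_right]
          exact mul_mem (hy.2.2.2.2 b hb) (hx.2.2.2.2 b hb)⟩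
      inv_mem' := fun {x} hx => ⟨inv_mem hx.1, by rw [hl.inv hx.1, hx.2.1],
        by rw [hm.inv hx.1, hx.2.2.1],
        fun b hb e1 e2 => (show Commute x b from hx.2.2.2.1 b hb e1 e2).inv_left.eq,
        fun b hb => by
          have : x⁻¹ * b * x⁻¹⁻¹ * b⁻¹ = x⁻¹ * (x * b * x⁻¹ * b⁻¹)⁻¹ * x := by group
          rw [this, h.cen _ (inv_mem (hx.2.2.2.2 b hb)) _ (inv_mem hx.1), inv_mul_cancel_right]
          exact inv_mem (hx.2.2.2.2 b hb)⟩ }
  have key : ∀ {n : G → ZMod 2} {a x : G}, a ∈ A → x ∈ B → Ind B n a x → l x = 0 → m x = 0 →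
      (∀ b ∈ B, l b = 0 → m b = 0 → n b = 0) → x ∈ E := fun {n a x} ha hx hi e1 e2 hn =>
    ⟨hx, e1, e2, fun b hb e3 e4 => by
      have := hi b hb
      rwa [r1_zero (hn b hb e3 e4), mul_one, mul_inv_eq_iff_eq_mul] at this, fun b hb => by
      rw [hi b hb, h.cen _ (r1_mem ha b) b hb, mul_inv_cancel_right]; exact r1_mem ha b⟩
  have ind1 : ∀ n : G → ZMod 2, Ind B n 1 1 := fun n x _ => by unfold r1; simp
  have hy0 : ∀ b ∈ W₂, b ≠ 1 → ∀ y ∈ B, Ind B m b y → l y = 0 := fun b hb _ y hy hi => by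
    obtain ⟨a, ha, a1, ab⟩ := exists_ne_two h4 b
    obtain ⟨x, hx, hi'⟩ := i1 a ha
    have := ind_cross h hx hy (h1 ha) (h2 hb) hi' hi
    rcases r1_cases l a y with ⟨e, -⟩ | ⟨-, e⟩
    · exact e
    · rw [e] at this
      rcases r1_cases m b x with ⟨-, e'⟩ | ⟨-, e'⟩ <;> rw [e'] at this
      exacts [absurd this a1, absurd this ab]
  have j2 : ∀ b : W₂, ∃ y ∈ E, Ind B m b y := fun ⟨b, hb⟩ => by
    by_cases e : b = 1
    · subst e; exact ⟨1, one_mem _, ind1 m⟩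
    obtain ⟨y, hy, hi⟩ := i2 b hb
    exact ⟨y, key (h2 hb) hy hi (hy0 b hb e y hy hi) (ind_self hy hi e) fun _ _ _ e => e, hi⟩
  have j1 : ∀ a : W₁, ∃ x ∈ E, Ind B l a x := fun ⟨a, ha⟩ => by
    by_cases e : a = 1
    · subst e; exact ⟨1, one_mem _, ind1 l⟩
    obtain ⟨x, hx, hi⟩ := i1 a ha
    obtain ⟨⟨b, hb⟩, b1⟩ := ne_bot_iff_exists_ne_one.1 hb
    have b1' : b ≠ 1 := fun e => b1 (Subtype.ext e)
    obtain ⟨y, hy, hi'⟩ := i2 b hb
    have := ind_cross h hx hy (h1 ha) (h2 hb) hi hi'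
    rw [r1_zero (hy0 b hb b1' y hy hi')] at this
    refine ⟨x, key (h1 ha) hx hi (ind_self hx hi e) ?_ fun _ _ e _ => e, hi⟩
    rcases r1_cases m b x with ⟨e', -⟩ | ⟨-, e'⟩
    exacts [e', absurd (e'.symm.trans this.symm) b1']
  choose x hxE hx using j1
  choose y hyE hy using j2
  let Z : Subgroup G := E ⊓ 𝒞(B)
  have act : ∀ (a : W₁) (b : W₂) (z : Z), ∀ u ∈ B, x a * y b * z * u * (x a * y b * z)⁻¹ =
      u * r1 l a u * r1 m b u := fun a b z u hu => by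
    have e1 : (z : G) * u * (z : G)⁻¹ = u := by
      rw [← (mem_centralizer_iff.1 z.2.2 u hu), mul_inv_cancel_right]
    calc x a * y b * z * u * (x a * y b * z)⁻¹
        = x a * (y b * (z * u * (z : G)⁻¹) * (y b)⁻¹) * (x a)⁻¹ := by group
      _ = x a * u * r1 m b u * (x a)⁻¹ := by rw [e1, hy b u hu, ← mul_assoc]
      _ = _ := by
        rw [mul_assoc, ← h.cen _ (r1_mem (h2 b.2) u) _ (inv_mem (hxE a).1), ← mul_assoc, hx a u hu]
  have inj : Function.Injective fun t : W₁ × W₂ × Z =>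
      (⟨x t.1 * y t.2.1 * t.2.2, mul_mem (mul_mem (hxE _) (hyE _)) t.2.2.2.1⟩ : E) := by
    rintro ⟨a, b, z⟩ ⟨a', b', z'⟩ e
    have e : x a * y b * z = x a' * y b' * z' := congrArg Subtype.val e
    have e1 := act a b z c hc
    have e2 := act a b z d hd
    rw [e, act a' b' z' c hc, r1_one lc, r1_one lc, r1_zero mc, r1_zero mc, mul_one, mul_one,
      mul_right_inj] at e1
    rw [e, act a' b' z' d hd, r1_one md, r1_one md, r1_zero ld, r1_zero ld, mul_right_inj] at e2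
    obtain rfl : a' = a := Subtype.ext e1
    obtain rfl : b' = b := Subtype.ext e2
    rw [mul_right_inj] at e
    obtain rfl : z = z' := Subtype.ext e
    rfl
  have c1 := Nat.card_le_card_of_injective _ inj
  rw [Nat.card_prod, Nat.card_prod] at c1
  have hab : ∀ u v : E, u * v = v * u := fun u v =>
    Subtype.ext (u.2.2.2.2.1 v v.2.1 v.2.2.1 v.2.2.2.1)
  let f : E →* G := MonoidHom.mk' (fun u => u * u) fun u v => by
    have := congrArg Subtype.val (hab u v)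
    simp only [coe_mul] at this ⊢
    rw [mul_assoc, ← mul_assoc (v : G), ← this]; group
  have c2 : Nat.card E = Nat.card f.range * Nat.card f.ker := by
    rw [card_eq_card_quotient_mul_card_subgroup f.ker,
      Nat.card_congr (QuotientGroup.quotientKerEquivRange f).toEquiv]
  have c3 : Nat.card f.range ≤ Nat.card Z := card_le_of_le (by
    rintro _ ⟨u, rfl⟩
    refine ⟨mul_mem u.2 u.2, mem_centralizer_iff.2 fun b hb => ?_⟩
    change b * (u * u) = u * u * b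
    have e1 := u.2.2.2.2.2 b hb
    have e2 := h.sq _ e1
    have e3 := h.cen _ e1 u u.2.1
    calc b * (u * u) = (u * b * (u : G)⁻¹ * b⁻¹) * (u * b * (u : G)⁻¹ * b⁻¹) * (b * (u * u)) := by
          rw [e2, one_mul]
      _ = (u * b * (u : G)⁻¹ * b⁻¹) * u * b * u := by group
      _ = _ := by rw [← e3]; group)
  have c4 : Nat.card f.ker ≤ Nat.card A := Nat.card_le_card_of_injective
    (fun u => (⟨u.1, h.om _ u.1.2.1 u.2⟩ : A)) fun u v e =>
      Subtype.ext (Subtype.ext (congrArg (fun t : A => (t : G)) e))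
  have c5 := Nat.mul_le_mul c3 c4
  have := card_pos' Z
  rw [← c2] at c5
  nlinarith

end Cfsg.Agent.H20.Hm
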