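import Cfsg.Agent.H20.Hom2
import Cfsg.Agent.S0071
import Cfsg.Agent.S0120
import Mathlib.GroupTheory.IsPerfect

/-! Homogeneous finite groups with central involutions. -/

set_option autoImplicit false

namespace Cfsg.Agent.H20.Hm

open Subgroup Cfsg.Agent.H49

variable {G : Type*} [Group G] [Finite G]

theorem exists_ad_proper {P C : Subgroup G} (hP : IsPi {2} P) (h : ¬ P ≤ C) :
    ∃ l, Ad P l ∧ (∀ x ∈ P, x ∈ C → l x = 0) ∧ ∃ x ∈ P, l x = 1 := by
  classical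
  have : Fact (Nat.Prime 2) := ⟨Nat.prime_two⟩
  obtain e | ⟨M, hM, hCM⟩ := eq_top_or_exists_le_coatom (C.subgroupOf P)
  · exact absurd (subgroupOf_eq_top.1 e) h
  obtain ⟨x, -, hx⟩ := SetLike.exists_of_lt hM.1.lt_top
  refine ⟨_, ad_of_relIndex (U := M.map P.subtype) (by
    rw [relIndex_map_subtype_self, H3.index_eq_of_isCoatom (pi_iff.1 hP) hM]),
    fun y hy hyN => if_pos ⟨⟨y, hy⟩, hCM hyN, rfl⟩, x, x.2, if_neg ?_⟩
  rintro ⟨y, hy, e⟩
  exact hx (by rwa [show x = y from Subtype.ext e.symm])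

theorem cent_of_odd {P A : Subgroup G} (hP : IsPi {2} P) {r : G} (hr : r ∈ 𝒩(P))
    (ho : Odd (orderOf r)) (hA : ∀ a ∈ A, r * a = a * r)
    (h : ∀ l, Ad P l → (∀ a ∈ P, a ∈ A → l a = 0) → ∀ x ∈ P, l (r * x * r⁻¹) = l x) :
    r ∈ 𝒞(P) := by
  have : Fact (Nat.Prime 2) := ⟨Nat.prime_two⟩
  by_contra hn
  obtain ⟨l, hl, h0, k, hk, e⟩ := exists_ad_proper (C := 𝒞[r]) hP (by rwa [le_cent1_iff])
  have hl' := h l hl fun a ha haA => h0 a ha (mem_cent1.2 (hA a haA).symm)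
  have cj := fun x => (mem_normalizer_iff.1 hr x).1
  obtain ⟨n, hn, e'⟩ := H93.aut_coset_fixed_elt (p := 2) (a := MulAut.conj r)
    ((Nat.coprime_two_right.2 ho).coprime_dvd_left (orderOf_map_dvd _ r)) (N := hl.ker)
    (pi_iff.1 (hP.of_le fun x hx => hx.1)) (fun n hn => ⟨cj n hn.1, (hl' n hn.1).trans hn.2⟩)
    (k := k) ⟨mul_mem (inv_mem hk) (cj k hk), by
      rw [MulAut.conj_apply, hl _ (inv_mem hk) _ (cj k hk), hl.inv hk, hl' k hk, e]; rfl⟩
  have := h0 _ (mul_mem hk hn.1) (mem_cent1.2 (mul_inv_eq_iff_eq_mul.1 e').symm)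
  rw [hl k hk n hn.1, e, hn.2] at this
  exact absurd this (by decide)

theorem mem_of_odd_two {N M : Subgroup G} (hn : N ≤ 𝒩(M)) {r y : G} (hr : r ∈ N) (hy : y ∈ N)
    (ho : Odd (orderOf r)) (h2 : IsPiElt {2} y) (e : y⁻¹ * r ∈ M) : r ∈ M := by
  have := normal_subgroupOf hn
  let f := QuotientGroup.mk' (M.subgroupOf N)
  have e1 : f ⟨y, hy⟩ = f ⟨r, hr⟩ := QuotientGroup.eq.2 e
  have d1 : orderOf (f ⟨r, hr⟩) ∣ orderOf r := (orderOf_map_dvd f _).trans (by rw [orderOf_mk])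
  have d2 : orderOf (f ⟨y, hy⟩) ∣ orderOf y := (orderOf_map_dvd f _).trans (by rw [orderOf_mk])
  rw [e1] at d2
  have : orderOf (f ⟨r, hr⟩) = 1 := IsPiNat.eq_one (IsPiNat.of_dvd h2 d2)
    ((isPiNat_compl_singleton Nat.prime_two).2 fun h => (Nat.not_even_iff_odd.2 ho)
      (even_iff_two_dvd.2 (h.trans d1)))
  exact (QuotientGroup.eq_one_iff (N := M.subgroupOf N) ⟨r, hr⟩).1 (orderOf_eq_one_iff.1 this)

theorem odd_of_piElt {z : G} (h : IsPiElt {2}ᶜ z) : Odd (orderOf z) :=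
  Nat.not_even_iff_odd.1 fun e => (isPiNat_compl_singleton Nat.prime_two).1 h (even_iff_two_dvd.1 e)

theorem central_aux (hG : Hom G) {A : Subgroup G} (hc : A ≤ center G) (hsq : ∀ a ∈ A, a * a = 1)
    (hom : ∀ x : G, x * x = 1 → x ∈ A) (h4 : 4 ≤ Nat.card A) {Q : Subgroup G} (hQ : IsPi {2} Q)
    {g : G} (hg : g ∈ 𝒩(Q)) (ho : Odd (orderOf g)) : g ∈ 𝒞(Q) := by
  by_contra hn
  obtain ⟨P, ⟨hP, r, hr, hro, hrc⟩, hmax⟩ := (wellFounded_gt (α := Subgroup G)).has_min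
    {P | IsPi {2} P ∧ ∃ r ∈ 𝒩(P), Odd (orderOf r) ∧ r ∉ 𝒞(P)} ⟨Q, hQ, g, hg, ho, hn⟩
  clear hQ hg ho hn Q g
  have cA : ∀ a ∈ A, ∀ x, x * a = a * x := fun a ha x => mem_center_iff.1 (hc ha) x
  have nA : ∀ X : Subgroup G, X ≤ 𝒩(A) := fun X => norm_of_cent fun x _ =>
    mem_centralizer_iff.2 fun a ha => (cA a ha x).symm
  have hA : IsPi {2} A := pi_iff.2 fun a => ⟨1, Subtype.ext (by simpa [pow_two] using hsq a a.2)⟩
  have hAP : A ≤ P := by
    by_contra h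
    refine hmax (P ⊔ A) ⟨hP.sup hA (Or.inl (nA P)), r, zpowers_le.1
      (norm_sup (zpowers_le.2 hr) (nA _)), hro, fun e => hrc (cent_anti le_sup_left e)⟩
      (lt_of_le_of_ne le_sup_left fun e => h (le_sup_right.trans e.ge))
  have cj : ∀ {g : G}, g ∈ 𝒩(P) → ∀ {x}, x ∈ P → g * x * g⁻¹ ∈ P :=
    fun hg x hx => (mem_normalizer_iff.1 hg x).1 hx
  have a0 : ∀ {l : G → ZMod 2}, (∀ a ∈ A, l a = 0) → ∀ g, ∀ a ∈ A, l (g * a * g⁻¹) = 0 :=
    fun h g a ha => by rw [cA a ha, mul_inv_cancel_right, h a ha]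
  let M : Subgroup G :=
    { carrier := {g | g ∈ 𝒩(P) ∧ ∀ l, Ad P l → (∀ a ∈ A, l a = 0) → ∀ x ∈ P, l (g * x * g⁻¹) = l x}
      one_mem' := ⟨one_mem _, fun l _ _ x _ => by simp⟩
      mul_mem' := fun {g h} hg hh => ⟨mul_mem hg.1 hh.1, fun l hl h0 x hx => by
        rw [← hh.2 l hl h0 x hx, ← hg.2 l hl h0 _ (cj hh.1 hx)]; group⟩
      inv_mem' := fun {g} hg => ⟨inv_mem hg.1, fun l hl h0 x hx => by
        rw [← hg.2 l hl h0 _ (cj (inv_mem hg.1) hx)]; group⟩ }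
  have hMN : M ≤ 𝒩(P) := fun g hg => hg.1
  have hPM : P ≤ M := fun g hg => ⟨le_normalizer hg, fun l hl _ x hx => hl.conj hx hg⟩
  have hn : 𝒩(P) ≤ 𝒩(M) := le_norm_iff.2 fun n hn g hg =>
    ⟨mul_mem (mul_mem hn hg.1) (inv_mem hn), fun l hl h0 x hx => by
      have := hg.2 _ (hl.comp hn) (a0 h0 n) _ (cj (inv_mem hn) hx)
      simp only [inv_inv, mul_inv_rev, mul_assoc, mul_inv_cancel, mul_one,
        mul_inv_cancel_left] at this ⊢
      exact this⟩
  have hCM : 𝒞(P) ≤ M := fun g hg => ⟨cent_le_norm P hg, fun l _ _ x hx => by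
    rw [← mem_centralizer_iff.1 hg x hx, mul_inv_cancel_right]⟩
  have hrM : r ∉ M := fun h => hrc (cent_of_odd (A := A) hP hr hro (fun a ha => cA a ha r)
    fun l hl h0 => h.2 l hl fun a ha => h0 a (hAP ha) ha)
  obtain ⟨Q, hQ, hPQ⟩ := exists_sylowOf_ge hP hPM
  have hQP : P = Q := by
    by_contra hne
    obtain ⟨m, hm, n, ⟨n1, n2⟩, e⟩ := (frattini_arg hMN hn hQ).2.2 r hr
    obtain ⟨y, hy, z, hz, e', y2, z2⟩ := exists_pi_decomp {2} n
    have hzQ : z ∈ 𝒞(Q) := by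
      by_contra h
      exact hmax Q ⟨hQ.pi, z, zpowers_le.2 n2 hz, odd_of_piElt z2, h⟩ (lt_of_le_of_ne hPQ hne)
    have hy' : y ∈ 𝒩(P) := zpowers_le.2 n1 hy
    refine hrM (mem_of_odd_two hn hr hy' hro y2 ?_)
    rw [e, e', show y⁻¹ * (m * (y * z)) = y⁻¹ * m * y⁻¹⁻¹ * z by group]
    exact mul_mem (le_norm_iff.1 hn _ (inv_mem hy') _ hm) (hCM (cent_anti hPQ hzQ))
  subst hQP
  have hO : Om P A := ⟨hAP, fun a ha x _ => cA a ha x, hsq, fun x _ => hom x⟩
  have inner : ∀ l, Ad P l → (∀ a ∈ A, l a = 0) → ∀ a ∈ A,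
      ∃ x ∈ P, Ind P ((fun y => l (r * y * r⁻¹)) + l) a x := fun l hl h0 a ha => by
    obtain ⟨g, hg⟩ := (hO.ca hl h0 ha).stepL hG hr (cA a ha r)
    have ca := hO.ca ((hl.comp hr).add hl) (fun b hb => by
      rw [Pi.add_apply, a0 h0 r b hb, h0 b hb, add_zero]) ha
    obtain ⟨k, hk, h2⟩ := ca.two hg
    refine ⟨_, zpowers_le.1 (hQ.le_of_norm (zpowers_le.2 ⟨ca.norm hk, fun m hm m0 x hx => ?_⟩) h2
      (Or.inl (zpowers_le.2 (ca.norm hk)))), hk⟩
    rw [hk x hx, hm x hx _ (r1_mem (hAP ha) x), m0 _ (r1_mem ha x), add_zero]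
  have : ¬ ∀ l, Ad P l → (∀ a ∈ A, l a = 0) → ∀ x ∈ P, l (r * x * r⁻¹) = l x := fun h => hrM ⟨hr, h⟩
  push Not at this
  obtain ⟨l, hl, h0, x, hx, hne⟩ := this
  have hx1 : l (r * x * r⁻¹) + l x = 1 := by
    revert hne; generalize l x = i; generalize l (r * x * r⁻¹) = j; revert i j; decide
  have := rank_lemma hO ((hl.comp hr).add hl) (((hl.comp hr).comp hr).add (hl.comp hr))
    ⟨x, hx, hx1⟩ ⟨r⁻¹ * x * r⁻¹⁻¹, cj (inv_mem hr) hx, by
      rw [← hx1]; simp only [Pi.add_apply]; group⟩ ?_ le_rfl le_rfl (inner l hl h0)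
    (inner _ (hl.comp hr) (a0 h0 r)) h4
  · nlinarith
  by_contra hn
  push Not at hn
  have h2 : ∀ y ∈ P, l (r * (r * y * r⁻¹) * r⁻¹) = l y := fun y hy => by
    have := hn y hy
    simp only [Pi.add_apply] at this
    revert this
    generalize l y = i; generalize l (r * y * r⁻¹) = j; generalize l (r * (r * y * r⁻¹) * r⁻¹) = k
    revert i j k; decide
  have h3 : ∀ k, l (r ^ (2 * k) * x * (r ^ (2 * k))⁻¹) = l x := fun k => by
    induction k with
    | zero => simp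
    | succ k ih =>
      rw [← ih, ← h2 _ (cj (pow_mem hr (2 * k)) hx)]; group
  obtain ⟨k, hk⟩ := hro
  have := h3 (k + 1)
  rw [show 2 * (k + 1) = orderOf r + 1 by omega, pow_succ, pow_orderOf_eq_one, one_mul] at this
  exact hne this

theorem not_compl_of_perfect [Group.IsPerfect G] {p : ℕ} [hp : Fact p.Prime] (P : Sylow p G)
    (hd : p ∣ Nat.card G) {N : Subgroup G} [N.Normal] (h : N.IsComplement' (P : Subgroup G)) :
    False := by
  have hq : IsPGroup p (G ⧸ N) := by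
    obtain ⟨k, hk⟩ := IsPGroup.iff_card.1 P.isPGroup'
    exact IsPGroup.of_card (n := k) (by rw [← hk, ← h.symm.index_eq_card]; rfl)
  have : Nontrivial (G ⧸ N) := by
    rw [← Finite.one_lt_card_iff_nontrivial, ← index_eq_card, h.symm.index_eq_card]
    exact lt_of_lt_of_le hp.out.one_lt (Nat.le_of_dvd Nat.card_pos (P.dvd_card_of_dvd_card hd))
  exact Group.IsPerfect.not_isNilpotent (G ⧸ N) hq.isNilpotent

/-- A perfect homogeneous group with central involutions has `2`-rank at most one. -/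
theorem rank_le_one (hG : Hom G) [Group.IsPerfect G] (hc : ∀ x : G, x * x = 1 → x ∈ center G) :
    PRankLE 2 1 G := by
  have : Fact (Nat.Prime 2) := ⟨Nat.prime_two⟩
  intro E _ hE
  by_contra hlt
  let A : Subgroup G :=
    { carrier := {x | x * x = 1}
      one_mem' := mul_one _
      mul_mem' := fun {x y} hx hy => by
        change x * y * (x * y) = 1
        rw [← mul_assoc, mul_assoc x, ← mem_center_iff.1 (hc y hy) x, ← mul_assoc, hx, one_mul, hy]
      inv_mem' := fun {x} hx => by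
        change x⁻¹ * x⁻¹ = 1
        rw [← mul_inv_rev, hx, inv_one] }
  obtain ⟨k, hk⟩ := IsPGroup.iff_card.1 (show IsPGroup 2 E from fun a =>
    ⟨1, Subtype.ext (by simpa using hE a a.2)⟩)
  have h4 : 4 ≤ Nat.card E := by
    rw [hk] at hlt ⊢
    exact Nat.pow_le_pow_right (n := 2) (i := 2) two_pos
      ((Nat.pow_lt_pow_iff_right one_lt_two).1 (not_le.1 hlt))
  obtain ⟨P⟩ : Nonempty (Sylow 2 G) := inferInstance
  obtain ⟨N, _, hN⟩ := (S0071.result P).2 fun Q hQ g hg ho =>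
    central_aux hG (A := A) (fun x hx => hc x hx) (fun _ h => h) (fun _ h => h)
      (h4.trans (card_le_of_le fun a ha => by
        change a * a = 1
        rw [← pow_two, hE a ha])) (pi_iff.2 (P.isPGroup'.to_le hQ)) hg
      (Nat.coprime_two_right.1 ho)
  refine not_compl_of_perfect P (dvd_trans ?_ (card_subgroup_dvd_card E)) hN
  rw [hk] at h4 ⊢
  exact dvd_pow_self 2 (by rintro rfl; omega)

/-- In a perfect group, the elements of odd prime order `p` are not all central. -/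
theorem odd_central [Group.IsPerfect G] {p : ℕ} [hp : Fact p.Prime] (h2 : p ≠ 2)
    (hd : p ∣ Nat.card G) (hc : ∀ x : G, x ^ p = 1 → x ∈ center G) : False := by
  obtain ⟨P⟩ : Nonempty (Sylow p G) := inferInstance
  obtain ⟨N, _, hN⟩ := (S0071.result P).2 fun Q hQ g hg ho => by
    have := S0120.result h2 (P.isPGroup'.to_le hQ) (Q.normalizerMonoidHom ⟨g, hg⟩)
      (ho.coprime_dvd_left ((orderOf_map_dvd _ _).trans (by rw [orderOf_mk]))) fun x hx => by
        ext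
        change g * x * g⁻¹ = x
        rw [mem_center_iff.1 (hc x (by exact_mod_cast congrArg Subtype.val hx)) g,
          mul_inv_cancel_right]
    refine mem_centralizer_iff.2 fun x hx => ?_
    have e : g * x * g⁻¹ = x := congrArg (fun f : MulAut Q => (f ⟨x, hx⟩ : G)) this
    exact (mul_inv_eq_iff_eq_mul.1 e).symm
  exact not_compl_of_perfect P hd hN

end Cfsg.Agent.H20.Hm
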