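import Cfsg.Agent.H20.Hom3

/-! Homogeneous finite groups: transvections on an elementary abelian `2`-subgroup. -/

set_option autoImplicit false

namespace Cfsg.Agent.H20.Hm

open Subgroup Cfsg.Agent.H49

variable {G : Type*} [Group G] [Finite G]

/-- elementary abelian -/
structure EA (A : Subgroup G) : Prop where
  comm : ∀ a ∈ A, ∀ x ∈ A, x * a = a * x
  sq : ∀ a ∈ A, a * a = 1

omit [Finite G] in
theorem mem_zp2 {w a : G} (hw : w * w = 1) (h : a ∈ zpowers w) : a = 1 ∨ a = w := by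
  obtain ⟨k, rfl⟩ := h
  obtain ⟨j, rfl | rfl⟩ := Int.even_or_odd' k
  · left; simp only [zpow_mul, zpow_two, hw, one_zpow]
  · right; simp only [zpow_add, zpow_mul, zpow_two, hw, one_zpow, one_mul, zpow_one]

omit [Finite G] in
theorem card_zp2 {w : G} (hw : w * w = 1) : Nat.card (zpowers w) ≤ 2 := by
  rw [Nat.card_zpowers]
  exact orderOf_le_of_pow_eq_one two_pos (by rw [pow_two, hw])

theorem card_le_two_mul_ker {P : Subgroup G} {l : G → ZMod 2} (hl : Ad P l) :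
    Nat.card P ≤ 2 * Nat.card hl.ker := by
  by_cases h : ∃ e ∈ P, l e = 1
  · obtain ⟨e, he, e1⟩ := h
    have : ∀ x : P, (x : G) * r1 l e x ∈ hl.ker := fun x => by
      refine ⟨mul_mem x.2 (r1_mem he _), ?_⟩
      rcases r1_cases l e x with ⟨a, b⟩ | ⟨a, b⟩ <;> rw [b]
      · rw [mul_one, a]
      · rw [hl _ x.2 _ he, a, e1]; rfl
    have := Nat.card_le_card_of_injective (fun x : P => (l x, (⟨_, this x⟩ : hl.ker)))
      fun x y h => by
        have h1 : l x = l y := congrArg Prod.fst h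
        have h2 : (x : G) * r1 l e x = y * r1 l e y := congrArg (fun t => (t.2 : G)) h
        unfold r1 at h2
        rw [h1] at h2
        exact Subtype.ext (mul_right_cancel h2)
    rwa [Nat.card_prod, Nat.card_zmod] at this
  · push Not at h
    have : Nat.card P ≤ Nat.card hl.ker :=
      card_le_of_le fun x hx => ⟨hx, (z2 _).resolve_right (h x hx)⟩
    omega

namespace EA

variable {A : Subgroup G} (h : EA A)
include h

omit [Finite G] in
theorem om : Om A A := ⟨le_rfl, h.comm, h.sq, fun _ hx _ => hx⟩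

omit [Finite G] in
theorem ca {l : G → ZMod 2} (hl : Ad A l) {a : G} (ha : a ∈ A) (h0 : l a = 0) : CA A l a :=
  ⟨hl, ha, h.comm a ha, h.sq a ha, h0⟩

theorem pi : IsPi {2} A := pi_iff.2 fun a => ⟨1, Subtype.ext (by simpa [pow_two] using h.sq a a.2)⟩

theorem sep {N : Subgroup G} {x : G} (hx : x ∈ A) (hxN : x ∉ N) :
    ∃ l, Ad A l ∧ (∀ y ∈ A, y ∈ N → l y = 0) ∧ l x = 1 :=
  exists_ad_sep (fun y hy => by rw [h.sq y hy]; exact one_mem _) hx hxN

theorem sep2 {w v : G} (hw : w ∈ A) (hv : v ∈ A) (v1 : v ≠ 1) (vw : v ≠ w) :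
    ∃ l, Ad A l ∧ l w = 0 ∧ l v = 1 := by
  obtain ⟨l, a, b, c⟩ := h.sep (N := zpowers w) hv fun e => (mem_zp2 (h.sq w hw) e).elim v1 vw
  exact ⟨l, a, b w hw (mem_zpowers w), c⟩

omit [Finite G] in
theorem move (hG : Hom G) {l l' m : G → ZMod 2} {u w g : G} (hm : Ad A m) (hu : u ∈ A)
    (h0 : m u = 0) (hl : ∀ x ∈ A, l' (x * r1 m u x) = l x) (hw : w ∈ A) (hg : Ind A l w g) :
    ∃ g', Ind A l' (w * r1 m u w) g' := by
  have ca := h.ca hm hu h0
  obtain ⟨κ, hκ⟩ := ca.ext hG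
  refine ⟨κ g, fun y hy => ?_⟩
  have hx := mul_mem hy (r1_mem (l := m) hu y)
  have e : y * r1 m u y * r1 m u (y * r1 m u y) = y := by
    rw [ca.r1_k hy, mul_assoc, ca.sq_r1, mul_one]
  have e1 := hκ _ hx
  have e2 := hl _ hx
  rw [e] at e1 e2
  have e3 := congrArg κ (hg _ hx)
  rw [map_mul, map_mul, map_inv, e1, map_mul, e1] at e3
  rw [e3]
  unfold r1 at *
  rw [e2]
  split_ifs <;> first | rw [map_one] | simp_all

theorem moveW (hG : Hom G) {l : G → ZMod 2} (hl : Ad A l) {w w' g : G} (hw : w ∈ A) (hw' : w' ∈ A)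
    (w1 : w ≠ 1) (w1' : w' ≠ 1) (l0 : l w = 0) (l0' : l w' = 0) (hg : Ind A l w g) :
    ∃ g', Ind A l w' g' := by
  by_cases e : w = w'
  · exact ⟨g, e ▸ hg⟩
  obtain ⟨m, hm, m0, m1⟩ := h.sep2 (mul_mem hw hw') hw w1 fun e => w1' (left_eq_mul.1 e)
  have := h.move hG (l' := l) hm (mul_mem hw hw') m0 (fun x hx => by
    rw [hl x hx _ (r1_mem (mul_mem hw hw') x)]
    rcases r1_cases m (w * w') x with ⟨-, b⟩ | ⟨-, b⟩ <;> rw [b]
    · rw [hl.one, add_zero]
    · rw [hl w hw w' hw', l0, l0', add_zero, add_zero]) hw hg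
  rwa [r1_one m1, ← mul_assoc, h.sq w hw, one_mul] at this

omit [Finite G] in
theorem moveL (hG : Hom G) {l l' : G → ZMod 2} (hl : Ad A l) (hl' : Ad A l')
    (l1 : ∃ x ∈ A, l x = 1) (l1' : ∃ x ∈ A, l' x = 1) {w g : G} (hw : w ∈ A) (l0 : l w = 0)
    (l0' : l' w = 0) (hg : Ind A l w g) : ∃ g', Ind A l' w g' := by
  obtain ⟨u, hu, u1, u2⟩ : ∃ u ∈ A, l u = 1 ∧ l' u = 1 := by
    obtain ⟨a, ha, a1⟩ := l1
    obtain ⟨b, hb, b1⟩ := l1'
    rcases z2 (l' a) with a2 | a2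
    · rcases z2 (l b) with b2 | b2
      · exact ⟨a * b, mul_mem ha hb, by rw [hl a ha b hb, a1, b2, add_zero],
          by rw [hl' a ha b hb, a2, b1, zero_add]⟩
      · exact ⟨b, hb, b2, b1⟩
    · exact ⟨a, ha, a1, a2⟩
  have := h.move hG (l' := l') (hl.add hl') hu (by rw [Pi.add_apply, u1, u2]; rfl) (fun x hx => by
    rw [hl' x hx _ (r1_mem hu x)]
    rcases r1_cases (l + l') u x with ⟨a, b⟩ | ⟨a, b⟩ <;> rw [b] <;> rw [Pi.add_apply] at a
    · rw [hl'.one]; revert a; generalize l x = i; generalize l' x = j; revert i j; decide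
    · rw [u2]; revert a; generalize l x = i; generalize l' x = j; revert i j; decide) hw hg
  rwa [r1_zero (by rw [Pi.add_apply, l0, l0', add_zero]), mul_one] at this

theorem first (hG : Hom G) (h8 : 8 ≤ Nat.card A) {g : G} (hg : g ∈ 𝒩(A)) (hc : g ∉ 𝒞(A)) :
    ∃ l w g', Ad A l ∧ (∃ x ∈ A, l x = 1) ∧ w ∈ A ∧ w ≠ 1 ∧ l w = 0 ∧ Ind A l w g' := by
  have cj : ∀ {g : G}, g ∈ 𝒩(A) → ∀ {x}, x ∈ A → g * x * g⁻¹ ∈ A :=
    fun hg x hx => (mem_normalizer_iff.1 hg x).1 hx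
  obtain ⟨v, hv, hne⟩ : ∃ v ∈ A, g⁻¹ * v * g ≠ v := by
    by_contra hn
    push Not at hn
    exact hc (mem_centralizer_iff.2 fun x hx => by
      conv_rhs => rw [← hn x hx]
      group)
  have hv' : g⁻¹ * v * g ∈ A := by simpa using cj (inv_mem hg) hv
  obtain ⟨e, he, heN⟩ : ∃ e ∈ A, e ∉ zpowers v ⊔ zpowers (g⁻¹ * v * g) := by
    by_contra hn
    push Not at hn
    have c1 := card_le_of_le (show A ≤ _ from hn)
    have c2 := Nat.le_of_dvd (Nat.mul_pos (card_pos' _) (card_pos' _))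
      (card_sup_dvd (H := zpowers v) (K := zpowers (g⁻¹ * v * g)) (Or.inl (norm_of_cent (by
        rw [cent_zpowers, zpowers_le, mem_cent1]; exact h.comm _ hv' _ hv))))
    have := Nat.mul_le_mul (card_zp2 (h.sq v hv)) (card_zp2 (h.sq _ hv'))
    omega
  obtain ⟨l, hl, l0, l1⟩ := h.sep he heN
  have lv := l0 v hv (mem_sup_left (mem_zpowers v))
  have lv' := l0 _ hv' (mem_sup_right (mem_zpowers _))
  have ca := h.ca hl hv lv
  obtain ⟨k, hk⟩ := ca.step0 hG hg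
  have act : ∀ y ∈ A, ∃ s ∈ A, k * y * k⁻¹ = y * r1 l v y * s ∧ (s = 1 ∨ s = g⁻¹ * v * g) :=
    fun y hy => by
      have := hk _ (mul_mem hy (r1_mem (l := l) hv y))
      rw [ca.r1_k hy, mul_assoc y, ca.sq_r1, mul_one] at this
      refine ⟨_, r1_mem hv' _, this, ?_⟩
      exact (r1_cases _ _ _).imp (·.2) (·.2)
  have hkN : k ∈ 𝒩(A) := mem_norm_of_cj_le fun y hy => by
    obtain ⟨x, hx, rfl⟩ := mem_cj'.1 hy
    obtain ⟨s, hs, e, -⟩ := act x hx
    rw [e]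
    exact mul_mem (mul_mem hx (r1_mem hv x)) hs
  have hkl : ∀ y ∈ A, l (k * y * k⁻¹) = l y := fun y hy => by
    obtain ⟨s, hs, e, e'⟩ := act y hy
    rw [e, hl _ (mul_mem hy (r1_mem hv y)) _ hs, hl _ hy _ (r1_mem hv y), ca.l_r1, add_zero]
    rcases e' with rfl | rfl
    exacts [by rw [hl.one, add_zero], by rw [lv', add_zero]]
  by_cases hW : ∀ w ∈ A, l w = 0 → k * w * k⁻¹ = w
  · obtain ⟨s, hs, e1, e2⟩ := act e he
    rw [r1_one l1, mul_assoc e] at e1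
    refine ⟨l, v * s, k, hl, ⟨e, he, l1⟩, mul_mem hv hs, fun e3 => ?_, ?_, fun x hx => ?_⟩
    · rcases e2 with rfl | rfl
      · rw [mul_one] at e3; exact hne (by rw [e3]; group)
      · exact hne (mul_left_cancel (e3.trans (h.sq v hv).symm))
    · rw [hl v hv s hs, lv, zero_add]
      rcases e2 with rfl | rfl
      exacts [hl.one, lv']
    · rcases r1_cases l (v * s) x with ⟨a, b⟩ | ⟨a, b⟩ <;> rw [b]
      · rw [hW x hx a, mul_one]
      · have := hW (x * e) (mul_mem hx he) (by rw [hl x hx e he, a, l1]; rfl)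
        calc k * x * k⁻¹ = k * (x * (e * e)) * k⁻¹ := by rw [h.sq e he, mul_one]
          _ = k * (x * e) * k⁻¹ * (k * e * k⁻¹) := by group
          _ = x * (e * e) * (v * s) := by rw [this, e1]; group
          _ = _ := by rw [h.sq e he, mul_one]
  · push Not at hW
    obtain ⟨w, hw, w0, hne⟩ := hW
    obtain ⟨g', hg'⟩ := (h.ca hl hw w0).stepA hG hkN hkl
    have hw' : k⁻¹ * w * k ∈ A := by simpa using cj (inv_mem hkN) hw
    refine ⟨l, _, g', hl, ⟨e, he, l1⟩, mul_mem hw' hw, fun e3 => hne ?_, ?_, hg'⟩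
    · conv_lhs => rw [← mul_right_cancel (e3.trans (h.sq w hw).symm)]
      group
    · rw [hl _ hw' _ hw, w0, add_zero, ← hkl _ hw', ← w0]; group

theorem all (hG : Hom G) (h8 : 8 ≤ Nat.card A) {g : G} (hg : g ∈ 𝒩(A)) (hc : g ∉ 𝒞(A))
    {l : G → ZMod 2} (hl : Ad A l) (l1 : ∃ x ∈ A, l x = 1) {w : G} (hw : w ∈ A) (w0 : l w = 0) :
    ∃ g', Ind A l w g' := by
  by_cases w1 : w = 1
  · exact ⟨1, fun x _ => by subst w1; unfold r1; simp⟩
  obtain ⟨m, u, k, hm, m1, hu, u1, u0, hk⟩ := h.first hG h8 hg hc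
  obtain ⟨⟨z, ⟨hz, zl⟩, zm⟩, z1⟩ := ne_bot_iff_exists_ne_one.1
    (show (hm.mono (Q := hl.ker) fun x hx => hx.1).ker ≠ ⊥ from fun e => by
      have c1 := card_le_two_mul_ker hl
      have c2 := card_le_two_mul_ker (hm.mono (Q := hl.ker) fun x hx => hx.1)
      rw [e, card_bot] at c2
      omega)
  have z1 : z ≠ 1 := fun e => z1 (Subtype.ext e)
  obtain ⟨k, hk⟩ := h.moveW hG hm hu hz u1 z1 u0 zm hk
  obtain ⟨k, hk⟩ := h.moveL hG hm hl m1 l1 hz zm zl hk
  exact h.moveW hG hl hz hw z1 w1 zl w0 hk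

end EA

end Cfsg.Agent.H20.Hm
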