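import Cfsg.Agent.H20.Hom4
import Cfsg.Agent.H43.ZW

/-! Homogeneous finite groups: a maximal elementary abelian `2`-subgroup of rank at least three
is central in its normaliser. -/

set_option autoImplicit false

namespace Cfsg.Agent.H20.Hm

open Subgroup Cfsg.Agent.H49

variable {G : Type*} [Group G] [Finite G]

omit [Finite G] in
theorem cjm {P : Subgroup G} {g : G} (hg : g ∈ 𝒩(P)) {x : G} (hx : x ∈ P) : g * x * g⁻¹ ∈ P :=
  (mem_normalizer_iff.1 hg x).1 hx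

omit [Finite G] in
theorem exists_four {B : Subgroup G} (k : ℕ) : ∀ b ∈ B, b ^ 2 ^ k = 1 → b * b ≠ 1 →
    ∃ y ∈ B, y * y ≠ 1 ∧ y * y * (y * y) = 1 := by
  induction k with
  | zero => intro b _ h h'; rw [pow_zero, pow_one] at h; exact absurd (by rw [h, mul_one]) h'
  | succ k ih =>
    intro b hb h h'
    by_cases e : b * b * (b * b) = 1
    · exact ⟨b, hb, h', e⟩
    · exact ih _ (mul_mem hb hb) (by rw [← pow_two, ← pow_mul, ← pow_succ', h]) e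

/-- The configuration. -/
structure Cf (A : Subgroup G) (n : G → ZMod 2) (hn : Ad A n) (e v r : G) (S T B : Subgroup G) :
    Prop where
  ea : EA A
  max : ∀ x ∈ 𝒞(A), x * x = 1 → x ∈ A
  h8 : 8 ≤ Nat.card A
  he : e ∈ A
  ne : n e = 1
  hv : v ∈ hn.ker
  hr : r ∈ S
  rv : r⁻¹ * v * r * v ≠ 1
  pi : IsPi {2} S
  SA : S ≤ 𝒩(A)
  SW : S ≤ 𝒩(hn.ker)
  ST : S ≤ 𝒩(T)
  SB : S ≤ 𝒩(B)
  TS : T ≤ S
  BT : B ≤ T
  AB : A ≤ B
  TW : T ≤ 𝒞(hn.ker)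
  syl : IsSylowOf 2 B 𝒞(A)
  tr : ∀ w ∈ hn.ker, ∃ t ∈ T, Ind A n w t
  all : ∀ l, Ad A l → (∃ x ∈ A, l x = 1) → ∀ w ∈ A, l w = 0 → ∃ g, Ind A l w g

theorem exists_cf (hG : Hom G) {A : Subgroup G} (h : EA A) (hm : ∀ x ∈ 𝒞(A), x * x = 1 → x ∈ A)
    (h8 : 8 ≤ Nat.card A) {g : G} (hg : g ∈ 𝒩(A)) (hc : g ∉ 𝒞(A)) :
    ∃ n hn e v r S T B, Cf A n hn e v r S T B := by
  have all := fun l hl l1 w hw w0 => h.all hG h8 hg hc (l := l) hl l1 (w := w) hw w0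
  obtain ⟨e, he, e1, -⟩ := exists_ne_two (W := A) (by omega) 1
  obtain ⟨n, hn, -, ne⟩ := h.sep (N := ⊥) he e1
  have h4 : 4 ≤ Nat.card hn.ker := by have := card_le_two_mul_ker hn; omega
  obtain ⟨w, hw, w1, -⟩ := exists_ne_two h4 1
  obtain ⟨v, hv, v1, vw⟩ := exists_ne_two h4 w
  obtain ⟨l, hl, lw, lv⟩ := h.sep2 hw.1 hv.1 v1 vw
  obtain ⟨g, hg⟩ := all l hl ⟨v, hv.1, lv⟩ w hw.1 lw
  have ca := h.ca hl hw.1 lw
  obtain ⟨k, hk, h2⟩ := ca.two hg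
  have hrW : g ^ k ∈ 𝒩(hn.ker) := mem_norm_of_cj_le fun y hy => by
    obtain ⟨x, hx, rfl⟩ := mem_cj'.1 hy
    rw [hk x hx.1]
    exact mul_mem hx (r1_mem hw x)
  obtain ⟨S, hS, hrS⟩ := exists_sylowOf_ge h2 (M := 𝒩(A) ⊓ 𝒩(hn.ker))
    (zpowers_le.2 ⟨ca.norm hk, hrW⟩)
  have WA : hn.ker ≤ A := fun x hx => hx.1
  have n1 : 𝒩(A) ⊓ 𝒩(hn.ker) ≤ 𝒩(𝒩(A) ⊓ 𝒞(hn.ker)) :=
    norm_inf (norm_norm inf_le_left) (norm_cent inf_le_right)
  have n2 : 𝒩(A) ⊓ 𝒩(hn.ker) ≤ 𝒩(𝒞(A)) := norm_cent inf_le_left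
  have CL : 𝒞(A) ≤ 𝒩(A) ⊓ 𝒞(hn.ker) := le_inf (cent_le_norm A) (cent_anti WA)
  have LL : 𝒩(A) ⊓ 𝒞(hn.ker) ≤ 𝒩(A) ⊓ 𝒩(hn.ker) := inf_le_inf_left _ (cent_le_norm _)
  have hT := hS.inf_normal LL n1
  have hB := hS.inf_normal (CL.trans LL) n2
  have AC : A ≤ 𝒞(A) := fun a ha => mem_centralizer_iff.2 fun x hx => h.comm a ha x hx
  refine ⟨n, hn, e, v, (g ^ k)⁻¹, S, _, _, h, hm, h8, he, ne, hv, inv_mem (zpowers_le.1 hrS), ?_,
    hS.pi, hS.le.trans inf_le_left, hS.le.trans inf_le_right,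
    norm_inf le_normalizer (hS.le.trans n1), norm_inf le_normalizer (hS.le.trans n2), inf_le_left,
    inf_le_inf_left _ CL, hB.le_of_norm AC h.pi (Or.inl (norm_of_cent (cent_symm hB.le))),
    inf_le_right.trans inf_le_right, hB, fun u hu => ?_, all⟩
  · have := hk v hv.1
    rw [inv_inv, this, r1_one lv, h.comm w hw.1 v hv.1, mul_assoc, h.sq v hv.1, mul_one]
    exact w1
  obtain ⟨t, ht⟩ := all n hn ⟨e, he, ne⟩ u hu.1 hu.2
  have cb := h.ca hn hu.1 hu.2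
  obtain ⟨j, hj, h2⟩ := cb.two ht
  obtain ⟨c, hc, hle⟩ := sylowOf_subJ hT (X := zpowers (t ^ j)) (zpowers_le.2 ⟨cb.norm hj,
    mem_centralizer_iff.2 fun x hx => by
      have := hj x hx.1
      rw [r1_zero hx.2, mul_one] at this
      exact (mul_inv_eq_iff_eq_mul.1 this).symm⟩) h2
  refine ⟨_, hle (conj_mem_cj.2 (mem_zpowers _)), fun x hx => ?_⟩
  have hy := cjm (inv_mem hc.1) hx
  have e1 : n (c⁻¹ * x * c⁻¹⁻¹) = n x := by
    have := mem_normalizer_iff.1 (inv_mem (LL hc).2) x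
    rw [hn.mem_ker, hn.mem_ker] at this
    rcases z2 (n x) with a | a
    · rw [a]; exact (this.1 ⟨hx, a⟩).2
    · rw [a]; exact z2' fun b => by rw [(this.2 ⟨hy, b⟩).2] at a; exact absurd a (by decide)
  have e2 : r1 n u (c⁻¹ * x * c⁻¹⁻¹) = r1 n u x := by unfold r1; rw [e1]
  have e3 := mem_centralizer_iff.1 hc.2 _ (r1_mem (l := n) hu x)
  calc c * t ^ j * c⁻¹ * x * (c * t ^ j * c⁻¹)⁻¹
      = c * (t ^ j * (c⁻¹ * x * c⁻¹⁻¹) * (t ^ j)⁻¹) * c⁻¹ := by group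
    _ = x * (c * r1 n u x) * c⁻¹ := by rw [hj _ hy, e2]; group
    _ = _ := by rw [← e3]; group

namespace Cf

variable {A : Subgroup G} {n : G → ZMod 2} {hn : Ad A n} {e v r : G} {S T B : Subgroup G}
  (h : Cf A n hn e v r S T B)
include h

theorem four : 4 ≤ Nat.card hn.ker := by have := card_le_two_mul_ker hn; have := h.h8; omega

theorem mem_B {g : G} (hg : g ∈ 𝒞(A)) (hN : g ∈ 𝒩(B)) (h2 : IsPi {2} (zpowers g)) : g ∈ B :=
  zpowers_le.1 (h.syl.le_of_norm (zpowers_le.2 hg) h2 (Or.inl (zpowers_le.2 hN)))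

theorem case_eq (hG : Hom G) (hBA : B ≤ A) : False := by
  obtain rfl : A = B := le_antisymm h.AB hBA
  have cW : ∀ w ∈ hn.ker, ∀ x ∈ T, x * w = w * x :=
    fun w hw x hx => (mem_centralizer_iff.1 (h.TW hx) w hw).symm
  obtain ⟨w, hw, w1, -⟩ := exists_ne_two h.four 1
  obtain ⟨t, ht, hi⟩ := h.tr w hw
  obtain ⟨l, hl, l0, ⟨x, hx, l1⟩, li⟩ := exists_ad_inv h.pi (lt_of_le_of_ne h.BT fun e' => by
    have := hi e h.he
    rw [h.ea.comm e h.he t (e' ▸ ht), mul_inv_cancel_right, r1_one h.ne, left_eq_mul] at this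
    exact w1 this) h.TS h.SA h.ST
  have ca : ∀ a ∈ hn.ker, CA T l a :=
    fun a ha => ⟨hl, h.BT ha.1, cW a ha, h.ea.sq a ha.1, l0 a ha.1⟩
  obtain ⟨g, hg⟩ := (ca v h.hv).stepA hG (h.ST h.hr) (li r h.hr)
  have ha : r⁻¹ * v * r * v ∈ hn.ker :=
    mul_mem (by simpa using cjm (inv_mem (h.SW h.hr)) h.hv) h.hv
  have rv := h.rv
  generalize r⁻¹ * v * r * v = a at *
  obtain ⟨k, hk, h2⟩ := (ca a ha).two hg
  generalize g ^ k = y at *
  have hyC : y ∈ 𝒞(A) := mem_centralizer_iff.2 fun z hz => by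
    have := hk z (h.BT hz)
    rw [r1_zero (l0 z hz), mul_one] at this
    exact (mul_inv_eq_iff_eq_mul.1 this).symm
  have hy := h.mem_B hyC (cent_le_norm _ hyC) h2
  rcases z2 (n y) with y0 | y1
  · have := hk x hx
    rw [← cW y ⟨hy, y0⟩ x hx, mul_inv_cancel_right, r1_one l1, left_eq_mul] at this
    exact rv this
  · obtain ⟨u, hu, u1, ua⟩ := exists_ne_two h.four a
    obtain ⟨s, hs, hi⟩ := h.tr u hu
    have e1 := hi y hy
    have e2 := hk s hs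
    have c1 := r1_mem (l := l) ha s
    have e3 : r1 l a s = 1 ∨ r1 l a s = a := (r1_cases _ _ _).imp (·.2) (·.2)
    rw [r1_one y1, mul_inv_eq_iff_eq_mul] at e1
    rw [mul_inv_eq_iff_eq_mul] at e2
    generalize r1 l a s = z at *
    rw [mul_assoc, ← cW u hu s hs, ← mul_assoc, e2, mul_assoc, mul_assoc, mul_right_inj,
      ← mul_assoc, ← cW z c1 y (h.BT hy), mul_assoc, left_eq_mul] at e1
    have e4 : z = u := mul_right_cancel (e1.trans (h.ea.sq u hu.1).symm)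
    rcases e3 with e3 | e3
    exacts [u1 (e4.symm.trans e3), ua (e4.symm.trans e3)]

omit [Finite G] in
theorem om : Om B A := ⟨h.AB, fun a ha _ hx => (mem_centralizer_iff.1 (h.syl.le hx) a ha).symm,
  h.ea.sq, fun x hx => h.max x (h.syl.le hx)⟩

theorem trans {a b : G} (ha : a ∈ A) (hb : b ∈ A) (a1 : a ≠ 1) (b1 : b ≠ 1) :
    ∃ g ∈ 𝒩(A) ⊓ 𝒩(B), g * a * g⁻¹ = b := by
  by_cases e : a = b
  · exact ⟨1, one_mem _, by simp [e]⟩
  obtain ⟨l, hl, l0, l1⟩ := h.ea.sep2 (mul_mem ha hb) ha a1 fun e => b1 (left_eq_mul.1 e)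
  obtain ⟨g, hg⟩ := h.all l hl ⟨a, ha, l1⟩ _ (mul_mem ha hb) l0
  obtain ⟨c, hc, k, hk, e⟩ := (frattini_arg (cent_le_norm A) (norm_cent le_rfl) h.syl).symm.2.2 g
    ((h.ea.ca hl (mul_mem ha hb) l0).norm hg)
  refine ⟨c, hc, ?_⟩
  have := hg a ha
  rw [r1_one l1, ← mul_assoc, h.ea.sq a ha, one_mul, e, mul_assoc c,
    ← mem_centralizer_iff.1 hk a ha] at this
  rw [← this]; group

theorem vanish (hBA : ¬ B ≤ A) {l : G → ZMod 2} (hl : Ad B l) : ∀ a ∈ A, l a = 0 := by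
  intro a ha
  by_cases a1 : a = 1
  · rw [a1, hl.one]
  obtain ⟨b, hb, hbA⟩ := SetLike.not_le_iff_exists.1 hBA
  obtain ⟨k, hk⟩ := pi_iff.1 h.syl.pi ⟨b, hb⟩
  obtain ⟨y, hy, y1, y2⟩ := exists_four k b hb (congrArg Subtype.val hk)
    fun e => hbA (h.om.om b hb e)
  obtain ⟨g, hg, e⟩ := h.trans (h.om.om _ (mul_mem hy hy) y2) ha y1 a1
  rw [← e, ← hl.sq (cjm hg.2 hy)]
  group

theorem inn (hG : Hom G) (hBA : ¬ B ≤ A) {l : G → ZMod 2} (hl : Ad B l) {g a : G} (hA : g ∈ 𝒩(A))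
    (hB : g ∈ 𝒩(B)) (hi : ∀ x ∈ B, l (g * x * g⁻¹) = l x) (ha : a ∈ A) :
    ∃ x ∈ B, Ind B l (g * a * g⁻¹ * a) x := by
  have l0 := h.vanish hBA hl
  obtain ⟨k, hk⟩ := (h.om.ca hl l0 ha).stepA hG (inv_mem hB) fun x hx => by
    rw [← hi _ (cjm (inv_mem hB) hx)]; group
  rw [inv_inv] at hk
  have ca := h.om.ca hl l0 (mul_mem (cjm hA ha) ha)
  obtain ⟨j, hj, h2⟩ := ca.two hk
  refine ⟨_, h.mem_B (mem_centralizer_iff.2 fun z hz => ?_) (ca.norm hj) h2, hj⟩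
  have := hj z (h.AB hz)
  rw [r1_zero (l0 z hz), mul_one] at this
  exact (mul_inv_eq_iff_eq_mul.1 this).symm

theorem innW (hG : Hom G) (hBA : ¬ B ≤ A) {l : G → ZMod 2} (hl : Ad B l) {t w : G} (ht : t ∈ T)
    (hw : w ∈ A) (hi : ∀ x ∈ B, l (t * x * t⁻¹) = l x) (hw' : Ind A n w t) :
    ∃ x ∈ B, Ind B l w x := by
  have := h.inn hG hBA hl (h.SA (h.TS ht)) (h.SB (h.TS ht)) hi h.he
  rwa [hw' e h.he, r1_one h.ne, h.ea.comm w hw e h.he, mul_assoc, h.ea.sq e h.he, mul_one] at this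

theorem second (hG : Hom G) (hBA : ¬ B ≤ A) {l : G → ZMod 2} (hl : Ad B l) {b : G} (hb : b ∈ B)
    (l1 : l b = 1) (li : ∀ s ∈ S, ∀ x ∈ B, l (s * x * s⁻¹) = l x) :
    ∃ m w, Ad B m ∧ (∃ x ∈ B, l x = 0 ∧ m x = 1) ∧ w ∈ A ∧ w ≠ 1 ∧ ∃ x ∈ B, Ind B m w x := by
  let D : Subgroup G :=
    { carrier := {x | x ∈ B ∧ ∀ m, Ad B m → m x = 0}
      one_mem' := ⟨one_mem _, fun m hm => hm.one⟩
      mul_mem' := fun {x y} hx hy => ⟨mul_mem hx.1 hy.1, fun m hm => by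
        rw [hm x hx.1 y hy.1, hx.2 m hm, hy.2 m hm, add_zero]⟩
      inv_mem' := fun {x} hx => ⟨inv_mem hx.1, fun m hm => by rw [hm.inv hx.1, hx.2 m hm]⟩ }
  have dec : ∀ x ∈ B, x ∈ hl.ker ∨ b⁻¹ * x ∈ hl.ker := fun x hx =>
    (z2 (l x)).imp (fun e => ⟨hx, e⟩) fun e => ⟨mul_mem (inv_mem hb) hx, by
      rw [hl _ (inv_mem hb) _ hx, hl.inv hb, l1, e]; rfl⟩
  have hlt : D < hl.ker := lt_of_le_of_ne (fun x hx => ⟨hx.1, hx.2 l hl⟩) fun eq => by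
    have hle : B ≤ zpowers b := by
      by_contra hle
      obtain ⟨m, hm, m0, x, hx, m1⟩ := exists_ad_proper h.syl.pi hle
      have mb := m0 b hb (mem_zpowers b)
      rcases dec x hx with a | a <;> rw [← eq] at a
      · exact absurd ((a.2 m hm).symm.trans m1) (by decide)
      · have := a.2 m hm
        rw [hm _ (inv_mem hb) _ hx, hm.inv hb, mb, m1] at this
        exact absurd this (by decide)
    have : IsCyclic A := isCyclic_of_le (h.AB.trans hle)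
    obtain ⟨a, ha⟩ := IsCyclic.exists_ofOrder_eq_natCard (α := A)
    have := orderOf_le_of_pow_eq_one (x := a) two_pos (Subtype.ext (by
      simpa [pow_two] using h.ea.sq a a.2))
    have := h.h8
    omega
  have SU : S ≤ 𝒩(hl.ker) := le_norm_iff.2 fun s hs x hx =>
    ⟨cjm (h.SB hs) hx.1, (li s hs x hx.1).trans hx.2⟩
  obtain ⟨k, hk, k0, ⟨u, hu, k1⟩, ki⟩ := exists_ad_inv h.pi hlt
    (fun x hx => h.TS (h.BT hx.1)) (le_norm_iff.2 fun s hs x hx =>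
      ⟨cjm (h.SB hs) hx.1, fun m hm => hx.2 _ (hm.comp (h.SB hs))⟩) SU
  obtain ⟨m, hm, m0, m1⟩ := exists_ad_sep (P := B) (N := hk.ker) (fun y hy =>
    ⟨⟨mul_mem hy hy, hl.sq hy⟩, k0 _ ⟨mul_mem hy hy, fun m hm => hm.sq hy⟩⟩) hu.1
    fun e => absurd (e.2.symm.trans k1) (by decide)
  have mk : ∀ x ∈ hl.ker, m x = k x := fun x hx => by
    rcases z2 (k x) with a | a
    · rw [a, m0 x hx.1 ⟨hx, a⟩]
    · have := m0 _ (mul_mem hx.1 hu.1) ⟨mul_mem hx hu, by rw [hk x hx u hu, a, k1]; rfl⟩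
      rw [hm x hx.1 u hu.1, m1] at this
      rw [a]; revert this; generalize m x = i; revert i; decide
  have mi : ∀ s ∈ S, ∀ x ∈ hl.ker, m (s * x * s⁻¹) = m x := fun s hs x hx => by
    rw [mk _ (cjm (SU hs) hx), mk x hx, ki s hs x hx]
  have fin : ∀ t ∈ T, ∀ w ∈ A, Ind A n w t → m (t * b * t⁻¹) = m b → ∃ x ∈ B, Ind B m w x :=
    fun t ht w hw hi e => h.innW hG hBA hm ht hw (fun x hx => by
      rcases dec x hx with a | a
      · exact mi t (h.TS ht) x a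
      · have := mi t (h.TS ht) _ a
        rw [show t * (b⁻¹ * x) * t⁻¹ = (t * b * t⁻¹)⁻¹ * (t * x * t⁻¹) by group,
          hm _ (inv_mem (cjm (h.SB (h.TS ht)) hb)) _ (cjm (h.SB (h.TS ht)) hx),
          hm _ (inv_mem hb) _ hx, hm.inv hb, hm.inv (cjm (h.SB (h.TS ht)) hb), e] at this
        exact add_left_cancel this) hi
  obtain ⟨w, hw, w1, -⟩ := exists_ne_two h.four 1
  obtain ⟨w', hw', w1', ww⟩ := exists_ne_two h.four w
  obtain ⟨t, ht, hi⟩ := h.tr w hw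
  obtain ⟨t', ht', hi'⟩ := h.tr w' hw'
  by_cases e1 : m (t * b * t⁻¹) = m b
  · exact ⟨m, w, hm, ⟨u, hu.1, hu.2, m1⟩, hw.1, w1, fin t ht w hw.1 hi e1⟩
  by_cases e2 : m (t' * b * t'⁻¹) = m b
  · exact ⟨m, w', hm, ⟨u, hu.1, hu.2, m1⟩, hw'.1, w1', fin t' ht' w' hw'.1 hi' e2⟩
  refine ⟨m, w * w', hm, ⟨u, hu.1, hu.2, m1⟩, mul_mem hw.1 hw'.1,
    fun e => ww (mul_left_cancel (e.trans (h.ea.sq w hw.1).symm)),
    fin (t * t') (mul_mem ht ht') _ (mul_mem hw.1 hw'.1) (fun x hx => ?_) ?_⟩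
  · have c := mem_centralizer_iff.1 (h.TW ht) _ (r1_mem (l := n) hw' x)
    calc t * t' * x * (t * t')⁻¹ = t * (t' * x * t'⁻¹) * t⁻¹ := by group
      _ = t * x * t⁻¹ * (t * r1 n w' x) * t⁻¹ := by rw [hi' x hx]; group
      _ = x * (r1 n w x * r1 n w' x) := by rw [← c, hi x hx]; group
      _ = _ := by unfold r1; split_ifs <;> simp
  · have hb' := cjm (h.SB (h.TS ht')) hb
    have hc : b⁻¹ * (t' * b * t'⁻¹) ∈ hl.ker := ⟨mul_mem (inv_mem hb) hb', by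
      rw [hl _ (inv_mem hb) _ hb', hl.inv hb, li t' (h.TS ht') b hb, l1]; rfl⟩
    have a1 := mi t (h.TS ht) _ hc
    rw [hm _ (inv_mem hb) _ hb', hm.inv hb] at a1
    rw [show t * t' * b * (t * t')⁻¹ = t * b * t⁻¹ * (t * (b⁻¹ * (t' * b * t'⁻¹)) * t⁻¹) by group,
      hm _ (cjm (h.SB (h.TS ht)) hb) _ (cjm (h.SB (h.TS ht)) hc.1), a1]
    revert e1 e2
    generalize m b = i; generalize m (t * b * t⁻¹) = j; generalize m (t' * b * t'⁻¹) = k
    revert i j k; decide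

theorem case_lt (hG : Hom G) (hBA : ¬ B ≤ A) : False := by
  obtain ⟨l, hl, -, ⟨b, hb, l1⟩, li⟩ := exists_ad_inv h.pi (N := ⊥) (M := B)
    (bot_lt_iff_ne_bot.2 fun e => hBA (e ▸ bot_le)) (h.BT.trans h.TS) (le_norm_bot _) h.SB
  have h8 := h.h8
  by_cases hfix : ∀ g ∈ 𝒩(A) ⊓ 𝒩(B), ∀ x ∈ B, l (g * x * g⁻¹) = l x
  · obtain ⟨m, w, hm, ⟨u, hu, lu, mu⟩, hw, w1, hx⟩ := h.second hG hBA hl hb l1 li
    have := rank_lemma (W₂ := zpowers w) h.om hl hm ⟨b, hb, l1⟩ ⟨u, hu, mu⟩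
      ⟨u, hu, by rw [lu, mu]; decide⟩ le_rfl (zpowers_le.2 hw) (fun a ha => by
        by_cases a1 : a = 1
        · exact ⟨1, one_mem _, fun x _ => by subst a1; unfold r1; simp⟩
        obtain ⟨c, hc, c1, ca⟩ := exists_ne_two (W := A) (by omega) a
        obtain ⟨g, hg, e⟩ := h.trans hc (mul_mem ha hc) c1
          fun e => ca (mul_left_cancel (e.trans (h.ea.sq a ha).symm))
        have := h.inn hG hBA hl hg.1 hg.2 (hfix g hg) hc
        rwa [e, mul_assoc, h.ea.sq c hc, mul_one] at this) (fun a ha => by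
        rcases mem_zp2 (h.ea.sq w hw) ha with rfl | rfl
        · exact ⟨1, one_mem _, fun x _ => by unfold r1; simp⟩
        · exact hx) (by omega)
    have h2 : 1 < Nat.card (zpowers w) := one_lt_card_iff_ne_bot _ |>.2 (by simpa using w1)
    nlinarith
  · push Not at hfix
    obtain ⟨g, hg, x, hx, hne⟩ := hfix
    have iW : ∀ w ∈ hn.ker, ∃ x ∈ B, Ind B l w x := fun w hw => by
      obtain ⟨t, ht, hi⟩ := h.tr w hw
      exact h.innW hG hBA hl ht hw.1 (li t (h.TS ht)) hi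
    have := rank_lemma (W₁ := hn.ker) (W₂ := cj g⁻¹ hn.ker) h.om hl (hl.comp hg.2) ⟨b, hb, l1⟩
      ⟨_, cjm (inv_mem hg.2) hb, by rw [← l1]; group⟩ ⟨x, hx, hne.symm⟩ (fun x hx => hx.1)
      (cj_le_of_mem_norm (fun x hx => hx.1) (inv_mem hg.1)) iW (fun a ha => by
        obtain ⟨w, hw, rfl⟩ := mem_cj'.1 ha
        obtain ⟨y, hy, hi⟩ := iW w hw
        refine ⟨_, cjm (inv_mem hg.2) hy, fun u hu => ?_⟩
        calc g⁻¹ * y * g⁻¹⁻¹ * u * (g⁻¹ * y * g⁻¹⁻¹)⁻¹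
            = g⁻¹ * (y * (g * u * g⁻¹) * y⁻¹) * g := by group
          _ = u * (g⁻¹ * r1 l w (g * u * g⁻¹) * g) := by rw [hi _ (cjm hg.2 hu)]; group
          _ = _ := by unfold r1; split_ifs <;> simp) h.four
    rw [card_cj] at this
    have := card_le_two_mul_ker hn
    have := h.four
    nlinarith

end Cf

theorem rank_three (hG : Hom G) {A : Subgroup G} (h : EA A) (hm : ∀ x ∈ 𝒞(A), x * x = 1 → x ∈ A)
    (h8 : 8 ≤ Nat.card A) : 𝒩(A) ≤ 𝒞(A) := fun g hg => by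
  by_contra hc
  obtain ⟨n, hn, e, v, r, S, T, B, h⟩ := exists_cf hG h hm h8 hg hc
  by_cases hBA : B ≤ A
  exacts [h.case_eq hG hBA, h.case_lt hG hBA]

/-- A homogeneous group with trivial core, without central involutions, has `2`-rank at most two. -/
theorem rank_le_two (hG : Hom G) (hO : pPrimeCore 2 G = ⊥)
    (hZ : ∀ x ∈ center G, x * x = 1 → x = 1) : PRankLE 2 2 G := by
  have : Fact (Nat.Prime 2) := ⟨Nat.prime_two⟩
  intro E hE hE'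
  by_contra hlt
  have eE : EA E := ⟨fun a ha x hx => mem_centralizer_iff.1 (abelian_iff.1 hE ha) x hx,
    fun a ha => by rw [← pow_two, hE' a ha]⟩
  obtain ⟨A, ⟨hA, hEA⟩, hmax⟩ := (wellFounded_gt (α := Subgroup G)).has_min
    {A | EA A ∧ E ≤ A} ⟨E, eE, le_rfl⟩
  obtain ⟨k, hk⟩ := eE.pi.exists_card_eq_pow Nat.prime_two
  have h8 : 8 ≤ Nat.card A := le_trans (by
    rw [hk] at hlt ⊢
    exact Nat.pow_le_pow_right (n := 2) (i := 3) two_pos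
      ((Nat.pow_lt_pow_iff_right one_lt_two).1 (not_le.1 hlt))) (card_le_of_le hEA)
  have hm : ∀ x ∈ 𝒞(A), x * x = 1 → x ∈ A := fun x hx x2 => by
    by_contra hxA
    have cx := mem_centralizer_iff.1 hx
    have mem : ∀ y ∈ A ⊔ zpowers x, ∃ a ∈ A, y = a ∨ y = a * x := fun y hy => by
      obtain ⟨a, ha, b, hb, rfl⟩ := (mem_sup_of_norm_left (zpowers_le.2 (cent_le_norm A hx))).1 hy
      rcases mem_zp2 x2 hb with rfl | rfl
      exacts [⟨a, ha, Or.inl (mul_one _)⟩, ⟨a, ha, Or.inr rfl⟩]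
    refine hmax (A ⊔ zpowers x) ⟨⟨fun y hy z hz => ?_, fun y hy => ?_⟩, hEA.trans le_sup_left⟩
      (lt_of_le_of_ne le_sup_left fun e => hxA (e ▸ mem_sup_right (mem_zpowers x)))
    · obtain ⟨a, ha, e⟩ := mem y hy
      obtain ⟨b, hb, e'⟩ := mem z hz
      have c1 : Commute b a := hA.comm a ha b hb
      have c2 : Commute a x := cx a ha
      have c3 : Commute b x := cx b hb
      rcases e with rfl | rfl <;> rcases e' with rfl | rfl
      exacts [c1, c1.mul_left c2.symm, c1.mul_right c3,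
        (c1.mul_right c3).mul_left (c2.symm.mul_right (Commute.refl _))]
    · obtain ⟨a, ha, rfl | rfl⟩ := mem y hy
      · exact hA.sq _ ha
      · rw [mul_assoc, ← mul_assoc x, ← cx a ha, mul_assoc, x2, mul_one, hA.sq a ha]
  have hN := rank_three hG hA hm h8
  obtain ⟨S, hS, hAS⟩ := exists_sylowOf_ge hA.pi (M := ⊤) le_top
  have hB : S ⊓ 𝒞(A) = S := eq_of_inf_norm_le_of_nilpotent (pi_iff.1 hS.pi).isNilpotent
    inf_le_left fun g hg => ⟨hg.1, hN (mem_norm_of_cj_le fun y hy => by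
      obtain ⟨a, ha, rfl⟩ := mem_cj'.1 hy
      refine hm _ (cjm hg.2 ⟨hAS ha, mem_centralizer_iff.2 fun x hx => hA.comm a ha x hx⟩).2 ?_
      rw [show g * a * g⁻¹ * (g * a * g⁻¹) = g * (a * a) * g⁻¹ by group, hA.sq a ha]
      group)⟩
  have hSC : S ≤ 𝒞(A) := hB ▸ inf_le_right
  obtain ⟨a, ha, a1, -⟩ := exists_ne_two (W := A) (by omega) 1
  obtain ⟨P, rfl⟩ := exists_sylow_of_top Nat.prime_two hS
  refine a1 (hZ a (H43.WC.mem_center hO (H43.WC.of_sylow P (hAS ha) fun g hg => ?_)) (hA.sq a ha))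
  have hg' : g * a * g⁻¹ ∈ A := hm _ (hSC hg) (by
    rw [show g * a * g⁻¹ * (g * a * g⁻¹) = g * (a * a) * g⁻¹ by group, hA.sq a ha]
    group)
  have s1 : IsSylowOf 2 (P : Subgroup G) 𝒞[g * a * g⁻¹] :=
    hS.sub (hSC.trans (cent_le_cent1 hg')) le_top
  have s2 : IsSylowOf 2 (cj g (P : Subgroup G)) 𝒞[g * a * g⁻¹] := by
    rw [← cj_cent1]
    exact (hS.sub (hSC.trans (cent_le_cent1 ha)) le_top).cj g
  obtain ⟨c, hc, e⟩ := sylowOf_conj s2 s1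
  rw [cj_cj, ← mem_norm_iff_cj] at e
  have hn : c * g ∈ 𝒩(A) := mem_norm_of_cj_le fun y hy => by
    obtain ⟨b, hb, rfl⟩ := mem_cj'.1 hy
    refine hm _ (hSC (cjm e (hAS hb))) ?_
    rw [show c * g * b * (c * g)⁻¹ * (c * g * b * (c * g)⁻¹) = c * g * (b * b) * (c * g)⁻¹ by group,
      hA.sq b hb]
    group
  have e1 := mem_centralizer_iff.1 (hN hn) a ha
  have e2 := mem_cent1.1 hc
  calc g * a * g⁻¹ = c * (g * a * g⁻¹) * c⁻¹ := by rw [e2, mul_inv_cancel_right]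
    _ = c * g * a * (c * g)⁻¹ := by group
    _ = a := by rw [← e1, mul_inv_cancel_right]

end Cfsg.Agent.H20.Hm
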