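/-
Hall subgroups that are TI: every `π(H)`-subgroup is conjugate into `H`.
-/
import Cfsg.Agent.H49.Hall
import Cfsg.Agent.H84.Frob
import Cfsg.Agent.S0035

set_option autoImplicit false

namespace Cfsg.Agent.H20

open Subgroup Cfsg Cfsg.Agent.H49

variable {G : Type*} [Group G] {H K : Subgroup G}

theorem ti_cj_eq (hTI : IsTISubset (H : Set G)) {g₁ g₂ x : G} (hx : x ≠ 1) (h1 : x ∈ cj g₁ H)
    (h2 : x ∈ cj g₂ H) : cj g₁ H = cj g₂ H := by
  have : g₂⁻¹ * g₁ ∈ 𝒩(H) := by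
    by_contra hn
    have := hTI _ hn _ (mem_cj.1 h1) (by
      have := mem_cj.1 h2
      change _ ∈ H
      convert this using 1; group)
    apply hx
    calc x = g₁ * (g₁⁻¹ * x * g₁) * g₁⁻¹ := by group
      _ = 1 := by rw [this]; group
  conv_rhs => rw [← cj_eq_of_mem_norm this, cj_cj, mul_inv_cancel_left]

theorem ti_mem_norm (hTI : IsTISubset (H : Set G)) {g a x : G} (hx : x ≠ 1) (h1 : x ∈ cj g H)
    (h2 : a⁻¹ * x * a ∈ cj g H) : a ∈ 𝒩(cj g H) := by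
  rw [mem_norm_iff_cj, cj_cj]
  exact ti_cj_eq hTI hx (by rw [← cj_cj]; exact mem_cj.2 h2) h1

variable [Finite G] {π : Set ℕ}

theorem ti_hall_mem (hH : IsPiHallOf π H ⊤) (hTI : IsTISubset (H : Set G)) {g a x : G}
    (hx : x ≠ 1) (h1 : x ∈ cj g H) (h2 : a⁻¹ * x * a ∈ cj g H) (ha : IsPiElt π a) :
    a ∈ cj g H :=
  ((hH.cj_of_mem (mem_top g)).sub le_normalizer le_top).mem_of_normal le_rfl
    (ti_mem_norm hTI hx h1 h2) ha

theorem ti_hall_exists_mem (hH : IsPiHallOf π H ⊤) (hTI : IsTISubset (H : Set G)) {k : G}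
    (hk : IsPiElt π k) : ∃ g, k ∈ cj g H := by
  by_cases h1 : k = 1
  · exact ⟨1, by rw [h1]; exact one_mem _⟩
  obtain ⟨p, hp, hd⟩ := exists_prime_dvd_card (zpowers_ne_bot.2 h1)
  obtain ⟨x, hx, hxo⟩ := exists_orderOf_eq_of_dvd_card hp hd
  obtain ⟨P, hP⟩ := exists_sylowOf p H
  have hxp : IsPi {p} (zpowers x) := isPi_of_card_eq_prime hp (by rw [Nat.card_zpowers, hxo])
  obtain ⟨g, -, hg⟩ := sylowOf_Jsub (hP.trans_sylow hH (isPi_zpowers.2 hk p hp hd)) le_top hxp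
  have hxg : x ∈ cj g H := cj_mono g hP.le (hg (mem_zpowers x))
  have hx1 : x ≠ 1 := by
    rintro rfl
    exact hp.ne_one (by rw [← hxo, orderOf_one])
  refine ⟨g, ti_hall_mem hH hTI hx1 hxg ?_ hk⟩
  obtain ⟨n, rfl⟩ := hx
  convert hxg using 1
  group

theorem ti_hall_Jsub (hH : IsPiHallOf π H ⊤) (hTI : IsTISubset (H : Set G)) (hK : IsPi π K) :
    ∃ g, K ≤ cj g H := by
  by_contra hc
  push Not at hc
  have frob : ∀ g, ∀ k ∈ K, k ≠ 1 → k ∈ cj g H →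
      IsFrobeniusComplement ((cj g H).subgroupOf K) := by
    intro g k hk h1 hkg
    refine (H84.isFrob_iff _).2 ⟨ne_bot_iff_exists.2 ⟨⟨k, hk⟩, hkg, fun h => h1 (congrArg Subtype.val h)⟩,
      fun h => hc g (subgroupOf_eq_top.1 h), fun a x hx hax hx1 => ?_⟩
    exact ti_hall_mem hH hTI (fun h => hx1 (Subtype.ext h)) hx hax (hK.elt a.2)
  obtain ⟨k, hk, hk1⟩ := ne_bot_iff_exists.1 (show K ≠ ⊥ from fun h => hc 1 (h ▸ bot_le))
  obtain ⟨g₁, hg₁⟩ := ti_hall_exists_mem hH hTI (hK.elt hk)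
  have f₁ := frob g₁ k hk hk1 hg₁
  obtain ⟨N₁, hN₁, -, c₁⟩ := S0035.result _ f₁
  obtain ⟨y, hy, hy1⟩ := ne_bot_iff_exists.1 (show N₁ ≠ ⊥ by
    rintro rfl
    exact f₁.2.1 (isComplement'_bot_left.1 c₁))
  have hy1' : (y : G) ≠ 1 := fun h => hy1 (Subtype.ext h)
  obtain ⟨g₂, hg₂⟩ := ti_hall_exists_mem hH hTI (hK.elt y.2)
  have f₂ := frob g₂ y y.2 hy1' hg₂
  obtain ⟨N₂, hN₂, -, c₂⟩ := S0035.result _ f₂
  have hcov : ((⊤ : Subgroup K) : Set K) ⊆ N₁ ∪ N₂ := by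
    intro z _
    by_contra hz
    rw [Set.mem_union, hN₁, hN₂, H84.mem_frobeniusKernel_iff, H84.mem_frobeniusKernel_iff] at hz
    push Not at hz
    obtain ⟨⟨hz1, a, ha⟩, -, b, hb⟩ := hz
    have e : cj (a * g₁) H = cj (b * g₂) H :=
      ti_cj_eq hTI (x := z) (fun h => hz1 (Subtype.ext h)) (by rw [← cj_cj]; exact mem_cj.2 ha)
        (by rw [← cj_cj]; exact mem_cj.2 hb)
    have hy' : y ∈ frobeniusKernel ((cj g₁ H).subgroupOf K) := hN₁ ▸ hy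
    rcases (H84.mem_frobeniusKernel_iff _ _).1 hy' with h | h
    · exact hy1 h
    refine h (b⁻¹ * a) ?_
    have : (b : G) * y * (b : G)⁻¹ ∈ cj (a * g₁) H := by
      rw [e, ← cj_cj]; exact conj_mem_cj.2 hg₂
    rw [← cj_cj, mem_cj] at this
    change (((b⁻¹ * a)⁻¹ * y * (b⁻¹ * a) : K) : G) ∈ cj g₁ H
    convert this using 1
    push_cast; group
  rcases SubgroupClass.subset_union.1 hcov with h | h
  · rw [top_le_iff.1 h] at c₁
    exact f₁.1 (isComplement'_top_left.1 c₁)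
  · rw [top_le_iff.1 h] at c₂
    exact f₂.1 (isComplement'_top_left.1 c₂)

end Cfsg.Agent.H20
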